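import Mathlib

/-!
# Finite reduced commutative rings with an involution fixing no idempotent (helper22)

`card_sq` : `|A| = Q ^ 2`, `Q` the number of fixed elements; `card_norm_one` : at most `Q + 1` elements `x`
satisfy `x * σ x = 1`.
-/

set_option autoImplicit false

namespace Cfsg.Agent.H22.DPi

/-- the hypotheses -/
structure Inv2 {A : Type*} [CommRing A] (σ : A →+* A) : Prop where
  red : ∀ x : A, x * x = 0 → x = 0
  inv : ∀ x, σ (σ x) = x
  ne : ∃ x, σ x ≠ x
  idem : ∀ e, e * e = e → σ e = e → e = 0 ∨ e = 1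

variable {A : Type*} [CommRing A] [Finite A] {σ : A →+* A}

omit [Finite A] in
theorem Inv2.pow (h : Inv2 σ) {x : A} : ∀ n : ℕ, x ^ n = 0 → x = 0 := by
  intro n
  induction n using Nat.strong_induction_on with
  | _ n ih =>
    intro hx
    rcases Nat.lt_or_ge n 2 with h2 | h2
    · interval_cases n
      · rw [pow_zero] at hx
        calc x = x * 1 := (mul_one x).symm
          _ = 0 := by rw [hx, mul_zero]
      · rwa [pow_one] at hx
    · refine ih (n - 1) (by omega) (h.red _ ?_)
      rw [← pow_add, show n - 1 + (n - 1) = n + (n - 2) by omega, pow_add, hx, zero_mul]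

theorem Inv2.unit_of_fixed (h : Inv2 σ) {x : A} (hx : σ x = x) (hx0 : x ≠ 0) : ∃ y, x * y = 1 := by
  obtain ⟨i, j, hij, hxij⟩ : ∃ i j : ℕ, i < j ∧ x ^ i = x ^ j := by
    obtain ⟨i, j, hne, he⟩ := Finite.exists_ne_map_eq_of_infinite (fun n : ℕ => x ^ n)
    rcases Nat.lt_or_gt_of_ne hne with h1 | h1
    · exact ⟨i, j, h1, he⟩
    · exact ⟨j, i, h1, he.symm⟩
  obtain ⟨k, rfl⟩ : ∃ k, j = i + (k + 1) := ⟨j - i - 1, by omega⟩
  have h1 : x * (1 - x ^ (k + 1)) = 0 := by
    apply h.pow (i + 1)
    have h2 : x ^ i * (1 - x ^ (k + 1)) = 0 := by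
      rw [mul_sub, mul_one, ← pow_add, ← hxij, sub_self]
    calc (x * (1 - x ^ (k + 1))) ^ (i + 1) = (x ^ i * (1 - x ^ (k + 1))) * (x * (1 - x ^ (k + 1)) ^ i) := by
          rw [mul_pow]
          generalize 1 - x ^ (k + 1) = w
          ring
      _ = 0 := by rw [h2, zero_mul]
  have h2 : x * x ^ (k + 1) = x := by linear_combination -h1
  have he : x ^ (k + 1) * x ^ (k + 1) = x ^ (k + 1) := by
    calc x ^ (k + 1) * x ^ (k + 1) = x ^ k * (x * x ^ (k + 1)) := by ring
      _ = x ^ (k + 1) := by rw [h2, pow_succ]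
  rcases h.idem _ he (by rw [map_pow, hx]) with h3 | h3
  · exact (hx0 (h.pow _ h3)).elim
  · exact ⟨x ^ k, by rw [← pow_succ', h3]⟩

theorem Inv2.unit_of_norm (h : Inv2 σ) {x : A} (hx : x * σ x ≠ 0) : ∃ y, x * y = 1 := by
  obtain ⟨y, hy⟩ := h.unit_of_fixed (x := x * σ x) (by rw [map_mul, h.inv, mul_comm]) hx
  exact ⟨σ x * y, by rw [← mul_assoc, hy]⟩

omit [Finite A] in
theorem mul_eq_zero_of_unit {x z : A} (hx : ∃ y, x * y = 1) (h : x * z = 0) : z = 0 := by
  obtain ⟨u, hu⟩ := hx
  calc z = (x * u) * z := by rw [hu, one_mul]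
    _ = u * (x * z) := by ring
    _ = 0 := by rw [h, mul_zero]

/-- **the order** -/
theorem Inv2.card_sq (h : Inv2 σ) :
    Nat.card A = Nat.card {x : A // σ x = x} * Nat.card {x : A // σ x = x} ∧
      Nat.card {x : A // σ x = -x} = Nat.card {x : A // σ x = x} := by
  obtain ⟨a, ha⟩ := h.ne
  set y := a - σ a with hy
  have hyσ : σ y = -y := by rw [hy, map_sub, h.inv]; ring
  have hy0 : y ≠ 0 := by
    intro h0
    exact ha (sub_eq_zero.1 h0).symm
  obtain ⟨y', hy'⟩ : ∃ y', y * y' = 1 := by
    apply h.unit_of_norm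
    rw [hyσ]
    intro h0
    apply hy0
    apply h.red
    linear_combination -h0
  have hy'σ : σ y' = -y' := by
    have h1 : -y * σ y' = 1 := by rw [← hyσ, ← map_mul, hy', map_one]
    linear_combination (-y') * h1 - σ y' * hy'
  have hminus : Nat.card {x : A // σ x = -x} = Nat.card {x : A // σ x = x} := by
    apply Nat.card_congr
    refine ⟨fun x => ⟨y' * x, ?_⟩, fun x => ⟨y * x, ?_⟩, ?_, ?_⟩
    · rw [map_mul, hy'σ, x.2]; ring
    · rw [map_mul, hyσ, x.2]; ring
    · intro x
      apply Subtype.ext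
      show y * (y' * x) = x
      rw [← mul_assoc, hy', one_mul]
    · intro x
      apply Subtype.ext
      show y' * (y * x) = x
      rw [← mul_assoc, mul_comm y', hy', one_mul]
  refine ⟨?_, hminus⟩
  let τ : A →+ A := AddMonoidHom.id A + σ.toAddMonoidHom
  have hτ : ∀ x, τ x = x + σ x := fun x => rfl
  have h1 : Nat.card τ.ker = Nat.card {x : A // σ x = -x} := by
    apply Nat.card_congr
    apply Equiv.subtypeEquivRight
    intro x
    rw [AddMonoidHom.mem_ker, hτ]
    constructor
    · intro h0; linear_combination h0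
    · intro h0; rw [h0]; ring
  have h2 : Nat.card τ.range = Nat.card {x : A // σ x = x} := by
    apply Nat.card_congr
    apply Equiv.subtypeEquivRight
    intro x
    constructor
    · rintro ⟨z, rfl⟩
      rw [hτ, map_add, h.inv, add_comm]
    · intro hx
      obtain ⟨b, hb⟩ : ∃ b, τ b ≠ 0 := by
        by_contra hcon
        push Not at hcon
        have h3 := hcon 1
        rw [hτ, map_one] at h3
        have h4 := hcon a
        rw [hτ] at h4
        apply ha
        linear_combination h4 - a * h3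
      have hbσ : σ (τ b) = τ b := by rw [hτ, map_add, h.inv, add_comm]
      obtain ⟨c, hc⟩ := h.unit_of_fixed hbσ hb
      have hcσ : σ c = c := by
        have h3 : τ b * σ c = 1 := by
          calc τ b * σ c = σ (τ b) * σ c := by rw [hbσ]
            _ = 1 := by rw [← map_mul, hc, map_one]
        linear_combination c * h3 - σ c * hc
      refine ⟨b * (c * x), ?_⟩
      rw [hτ, map_mul, map_mul, hcσ, hx]
      calc b * (c * x) + σ b * (c * x) = (b + σ b) * c * x := by ring
        _ = x := by rw [← hτ, hc, one_mul]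
  have h3 := τ.ker.card_mul_index
  have h4 : τ.ker.index = Nat.card τ.range := AddSubgroup.index_ker τ
  rw [h4, h1, h2, hminus] at h3
  exact h3.symm

/-- **the elements of norm one** -/
theorem Inv2.card_norm_one (h : Inv2 σ) :
    Nat.card {x : A // x * σ x = 1} ≤ Nat.card {x : A // σ x = x} + 1 := by
  classical
  have := Fintype.ofFinite A
  obtain ⟨h1, h2⟩ := h.card_sq
  obtain ⟨a, ha⟩ := h.ne
  have h10 : (1 : A) ≠ 0 := by
    intro h0
    apply ha
    calc σ a = σ a * 1 := (mul_one _).symm
      _ = a * 1 := by rw [h0, mul_zero, mul_zero]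
      _ = a := mul_one _
  simp only [Nat.card_eq_fintype_card, Fintype.card_subtype] at h1 h2 ⊢
  set A0 := Finset.univ.filter (fun x : A => σ x = x) with hA0
  set Am := Finset.univ.filter (fun x : A => σ x = -x) with hAm
  set N := Finset.univ.filter (fun x : A => x * σ x = 1) with hN
  -- the injection
  have hw : ∀ x, x * σ x = 1 → σ (x - 1) = - (σ x * (x - 1)) := by
    intro x hx
    rw [map_sub, map_one]
    linear_combination hx
  have hwu : ∀ x, x * σ x = 1 → x ≠ 1 → ∃ y, (x - 1) * y = 1 := by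
    intro x hx hx1
    apply h.unit_of_norm
    intro h0
    apply hx1
    rw [← sub_eq_zero]
    apply h.red
    rw [hw x hx] at h0
    linear_combination (-x) * h0 - (x - 1) * (x - 1) * hx
  have hinj : ((A0.erase 0) ×ˢ (N.erase 1)).card ≤ (Finset.univ \ Am).card := by
    apply Finset.card_le_card_of_injOn (fun cx : A × A => cx.1 * (cx.2 - 1))
    · rintro ⟨c, x⟩ hcx
      simp only [Finset.coe_product, Set.mem_prod, Finset.mem_coe, Finset.mem_erase, hA0, hN,
        Finset.mem_filter, Finset.mem_univ, true_and] at hcx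
      obtain ⟨⟨hc0, hc⟩, hx1, hx⟩ := hcx
      simp only [Finset.mem_coe, Finset.mem_sdiff, Finset.mem_univ, true_and, hAm, Finset.mem_filter]
      intro h3
      rw [map_mul, hc, hw x hx] at h3
      have h4 : c * (σ x * (x - 1) - (x - 1)) = 0 := by linear_combination -h3
      have h5 := mul_eq_zero_of_unit (h.unit_of_fixed hc hc0) h4
      have h6 : (x - 1) * (σ x - 1) = 0 := by linear_combination h5
      have h7 := mul_eq_zero_of_unit (hwu x hx hx1) h6
      apply hx1
      linear_combination hx - x * h7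
    · rintro ⟨c, x⟩ hcx ⟨c', x'⟩ hcx' he
      simp only [Finset.coe_product, Set.mem_prod, Finset.mem_coe, Finset.mem_erase, hA0, hN,
        Finset.mem_filter, Finset.mem_univ, true_and] at hcx hcx'
      obtain ⟨⟨hc0, hc⟩, hx1, hx⟩ := hcx
      obtain ⟨⟨hc0', hc'⟩, hx1', hx'⟩ := hcx'
      simp only at he
      have h3 : c * (σ x * (x - 1)) = c' * (σ x' * (x' - 1)) := by
        have h4 := congrArg σ he
        rw [map_mul, map_mul, hc, hc', hw x hx, hw x' hx'] at h4
        linear_combination -h4
      have h4 : c * ((x - 1) * (σ x - σ x')) = 0 := by linear_combination h3 - σ x' * he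
      have h5 := mul_eq_zero_of_unit (h.unit_of_fixed hc hc0) h4
      have h6 := mul_eq_zero_of_unit (hwu x hx hx1) h5
      have hxx : x = x' := by
        have h7 : σ x = σ x' := sub_eq_zero.1 h6
        rw [← h.inv x, h7, h.inv]
      subst hxx
      have h8 : (x - 1) * (c - c') = 0 := by linear_combination he
      have h9 := mul_eq_zero_of_unit (hwu x hx hx1) h8
      rw [sub_eq_zero.1 h9]
  rw [Finset.card_product, Finset.card_sdiff_of_subset (Finset.subset_univ _), Finset.card_univ,
    Finset.card_erase_of_mem (by simp [hA0]), Finset.card_erase_of_mem (by simp [hN]), h1, h2] at hinj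
  have h3 : 2 ≤ A0.card := by
    have h4 : ({0, 1} : Finset A) ⊆ A0 := by
      intro x hx
      simp only [Finset.mem_insert, Finset.mem_singleton] at hx
      rcases hx with rfl | rfl <;> simp [hA0]
    calc 2 = ({0, 1} : Finset A).card := by
          rw [Finset.card_insert_of_notMem (by simpa using h10.symm), Finset.card_singleton]
      _ ≤ _ := Finset.card_le_card h4
  obtain ⟨q, hq⟩ : ∃ q, A0.card = q + 2 := ⟨A0.card - 2, by omega⟩
  rw [hq] at hinj ⊢
  by_contra hcon
  push Not at hcon
  obtain ⟨n, hn⟩ : ∃ n, N.card = q + 4 + n := ⟨N.card - (q + 4), by omega⟩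
  rw [hn] at hinj
  have h5 : q + 2 - 1 = q + 1 := by omega
  have h6 : q + 4 + n - 1 = q + 3 + n := by omega
  have h7 : (q + 2) * (q + 2) - (q + 2) = (q + 1) * (q + 2) := by
    rw [show (q + 2) * (q + 2) = (q + 1) * (q + 2) + (q + 2) by ring, Nat.add_sub_cancel]
  rw [h5, h6, h7] at hinj
  nlinarith

end Cfsg.Agent.H22.DPi
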