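import Cfsg.Agent.H22.DPi.BlockFix
import Cfsg.Agent.H22.DPi.NormOne

/-!
# The centraliser of `T` on a block (helper22)

`block_card` : `dim U = 2 m` and the centraliser of `T` in the isometry group of the block `U` has at most
`q ^ m + 1` elements.
-/

set_option autoImplicit false
set_option linter.unusedSectionVars false
set_option linter.deprecated false

namespace Cfsg.Agent.H22.DPi

open Module Cfsg.Agent.H167.OP Cfsg.Agent.H170.HL Cfsg.Agent.H988.CPi Cfsg.Agent.H560.HallKey
  Cfsg.Agent.H553.OddHall Cfsg.Agent.H572.RV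

variable {F : Type*} [Field F] [Finite F] {V : Type*} [AddCommGroup V] [Module F V] [Finite V]
  [FiniteDimensional F V] {K : Type*} [Group K] [Finite K] {t : ℕ}
  {ρ : Representation F K V} {f : V →ₗ[F] V →ₗ[F] F} {Q : V → F} {H : Subgroup K} {U : Submodule F V}

/-- the restrictions of the small elements -/
def ZU (ρ : Representation F K V) (t : ℕ) (H : Subgroup K) (U : Submodule F V) : Set (End F U) :=
  {a | ∃ z ∈ Zs ρ t H, ∀ u : U, (a u : V) = ρ z u}

theorem zu_comm (h : Std ρ f Q t H) : ∀ a ∈ ZU ρ t H U, ∀ b ∈ ZU ρ t H U, a * b = b * a := by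
  rintro a ⟨x, hx, ha⟩ b ⟨y, hy, hb⟩
  apply LinearMap.ext
  intro u
  apply Subtype.ext
  show ((a (b u) : U) : V) = ((b (a u) : U) : V)
  rw [ha, hb, hb, ha, ← mul_ap, ← mul_ap, h.comm_zs hx hy]

theorem zu_pow (h : Std ρ f Q t H) : ∀ a ∈ ZU ρ t H U, a ^ t ^ Nat.card K = 1 := by
  rintro a ⟨x, hx, ha⟩
  have h1 : ∀ n : ℕ, ∀ u : U, ((a ^ n) u : V) = ρ (x ^ n) u := by
    intro n
    induction n with
    | zero => intro u; rw [pow_zero, pow_zero, one_ap]; rfl
    | succ n ih =>
      intro u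
      rw [pow_succ', pow_succ', mul_ap, ← ih, ← ha]
      rfl
  apply LinearMap.ext
  intro u
  apply Subtype.ext
  rw [h1, pow_tt h.ht hx.2.1, one_ap]
  rfl

theorem exists_zu {z : K} (hz : z ∈ Zs ρ t H) (hzU : ∀ u ∈ U, ρ z u ∈ U) :
    ∃ a ∈ ZU ρ t H U, ∀ u : U, (a u : V) = ρ z u :=
  ⟨(ρ z).restrict hzU, ⟨z, hz, fun _ => rfl⟩, fun _ => rfl⟩

/-- the algebra on the block -/
def AU (ρ : Representation F K V) (t : ℕ) (H : Subgroup K) (U : Submodule F V) : Subalgebra F (End F U) :=
  Algebra.adjoin F (ZU ρ t H U)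

theorem au_comm (h : Std ρ f Q t H) : ∀ a ∈ AU ρ t H U, ∀ b ∈ AU ρ t H U, a * b = b * a := by
  intro a ha b hb
  have h1 := (Algebra.adjoinCommRingOfComm F (zu_comm (U := U) h)).mul_comm ⟨a, ha⟩ ⟨b, hb⟩
  exact congrArg Subtype.val h1

theorem exists_au (hUi : ∀ z ∈ Zs ρ t H, ∀ u ∈ U, ρ z u ∈ U) {x : End F V}
    (hx : x ∈ Algebra.adjoin F (ZE ρ t H)) : ∃ y ∈ AU ρ t H U, ∀ u : U, (y u : V) = x u := by
  induction hx using Algebra.adjoin_induction with
  | mem x hx =>
    obtain ⟨z, hz, rfl⟩ := hx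
    obtain ⟨a, ha, hau⟩ := exists_zu hz (hUi z hz)
    exact ⟨a, Algebra.subset_adjoin ha, hau⟩
  | algebraMap c => exact ⟨algebraMap F (End F U) c, Subalgebra.algebraMap_mem _ c, fun u => rfl⟩
  | add a b _ _ iha ihb =>
    obtain ⟨y, hy, hyu⟩ := iha
    obtain ⟨y', hy', hyu'⟩ := ihb
    refine ⟨y + y', add_mem hy hy', fun u => ?_⟩
    rw [LinearMap.add_apply, LinearMap.add_apply, ← hyu, ← hyu']
    rfl
  | mul a b _ _ iha ihb =>
    obtain ⟨y, hy, hyu⟩ := iha
    obtain ⟨y', hy', hyu'⟩ := ihb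
    refine ⟨y * y', mul_mem hy hy', fun u => ?_⟩
    rw [Module.End.mul_apply, Module.End.mul_apply, hyu, hyu']

theorem bl_inv (h : Std ρ f Q t H) (hU : U ∈ Bl ρ t H) {g : K} (hg : ∀ z ∈ Zs ρ t H, g * z = z * g) :
    ∀ u ∈ U, ρ g u ∈ U := by
  obtain ⟨z, hz, rfl, -⟩ := hU
  intro u hu
  exact map_mem_of_comm (hg z hz) hu

/-- the generator -/
theorem exists_gen' (h : Std ρ f Q t H) (hS : SX ρ t H) (hU : U ∈ Bl ρ t H) :
    ∃ v : U, ∀ u : U, ∃ x ∈ AU ρ t H U, u = x v := by
  obtain ⟨v, hv, hgen⟩ := exists_gen h hS hU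
  refine ⟨⟨v, hv⟩, fun u => ?_⟩
  obtain ⟨x, hx, hxu⟩ := hgen u u.2
  obtain ⟨y, hy, hyu⟩ := exists_au (fun z hz => bl_inv h hU (fun z' hz' => h.comm_zs hz hz')) hx
  exact ⟨y, hy, Subtype.ext (by rw [hxu, hyu])⟩

/-- adjoints -/
theorem exists_adj (h : Std ρ f Q t H) {x : End F U} (hx : x ∈ AU ρ t H U) :
    ∃ y ∈ AU ρ t H U, ∀ u w : U, f (x u : V) w = f u (y w : V) := by
  induction hx using Algebra.adjoin_induction with
  | mem x hx =>
    have hx' := hx
    obtain ⟨z, hz, hxz⟩ := hx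
    have h1 := zu_pow h x hx'
    have ht1 : 1 ≤ t ^ Nat.card K := Nat.one_le_pow _ _ h.ht.pos
    refine ⟨x ^ (t ^ Nat.card K - 1), pow_mem (Algebra.subset_adjoin hx') _, fun u w => ?_⟩
    have h2 : x ((x ^ (t ^ Nat.card K - 1)) w) = w := by
      show (x * x ^ (t ^ Nat.card K - 1)) w = w
      rw [← pow_succ', Nat.sub_add_cancel ht1, h1]
      rfl
    have h3 : ρ z ((x ^ (t ^ Nat.card K - 1)) w : V) = w := by rw [← hxz, h2]
    nth_rewrite 1 [← h3]
    rw [hxz, h.iso]
  | algebraMap c =>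
    refine ⟨algebraMap F (End F U) c, Subalgebra.algebraMap_mem _ c, fun u w => ?_⟩
    show f (c • (u : V)) w = f u (c • (w : V))
    rw [map_smul, map_smul, LinearMap.smul_apply]
  | add a b _ _ iha ihb =>
    obtain ⟨y, hy, hyu⟩ := iha
    obtain ⟨y', hy', hyu'⟩ := ihb
    refine ⟨y + y', add_mem hy hy', fun u w => ?_⟩
    show f ((a u : V) + (b u : V)) w = f u ((y w : V) + (y' w : V))
    rw [map_add, map_add, LinearMap.add_apply, hyu, hyu']
  | mul a b ha hb iha ihb =>
    obtain ⟨y, hy, hyu⟩ := iha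
    obtain ⟨y', hy', hyu'⟩ := ihb
    refine ⟨y' * y, mul_mem hy' hy, fun u w => ?_⟩
    show f (a (b u) : V) w = f u (y' (y w) : V)
    rw [hyu, hyu']

/-- uniqueness of adjoints -/
theorem adj_unique (hnd : ND f U) {y y' : End F U}
    (hy : ∀ u w : U, f (u : V) (y w : V) = f u (y' w : V)) : y = y' := by
  apply LinearMap.ext
  intro w
  apply Subtype.ext
  rw [← sub_eq_zero]
  refine hnd _ (U.sub_mem (y w).2 (y' w).2) ?_
  intro x hx
  rw [map_sub, hy ⟨x, hx⟩ w, sub_self]

/-- the adjoint -/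
noncomputable def adj (h : Std ρ f Q t H) (x : AU ρ t H U) : AU ρ t H U :=
  ⟨(exists_adj h x.2).choose, (exists_adj h x.2).choose_spec.1⟩

theorem adj_spec (h : Std ρ f Q t H) (x : AU ρ t H U) (u w : U) :
    f ((x : End F U) u : V) w = f u ((adj h x : End F U) w : V) := (exists_adj h x.2).choose_spec.2 u w

theorem adj_eq (h : Std ρ f Q t H) (hnd : ND f U) {x y : AU ρ t H U}
    (hy : ∀ u w : U, f ((x : End F U) u : V) w = f u ((y : End F U) w : V)) : adj h x = y := by
  apply Subtype.ext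
  apply adj_unique hnd
  intro u w
  rw [← adj_spec, hy]

theorem adj_adj (h : Std ρ f Q t H) (hnd : ND f U) (x : AU ρ t H U) : adj h (adj h x) = x := by
  apply adj_eq h hnd
  intro u w
  obtain ⟨ε, -, hε⟩ := h.sym
  rw [hε, ← adj_spec, ← hε]

/-- the commutative ring -/
@[implicit_reducible]
noncomputable def cr (h : Std ρ f Q t H) : CommRing (AU ρ t H U) :=
  { (AU ρ t H U).toRing with
    mul_comm := fun a b => Subtype.ext (au_comm h (a : End F U) a.2 (b : End F U) b.2) }

theorem exists_sigma (h : Std ρ f Q t H) (hnd : ND f U) :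
    ∃ σ : (letI := cr (U := U) h; AU ρ t H U →+* AU ρ t H U), ∀ x, σ x = adj h x := by
  letI := cr (U := U) h
  refine ⟨{ toFun := adj h, map_one' := ?_, map_mul' := ?_, map_zero' := ?_, map_add' := ?_ }, fun _ => rfl⟩
  · exact adj_eq h hnd (fun u w => rfl)
  · intro x y
    apply adj_eq h hnd
    intro u w
    show f ((x : End F U) ((y : End F U) u) : V) w = f u ((adj h x : End F U) ((adj h y : End F U) w) : V)
    rw [adj_spec, adj_spec]
    have h1 := au_comm h (adj h x : End F U) (adj h x).2 (adj h y : End F U) (adj h y).2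
    have h2 := LinearMap.congr_fun h1 w
    rw [Module.End.mul_apply, Module.End.mul_apply] at h2
    rw [h2]
  · apply adj_eq h hnd
    intro u w
    show f (0 : V) w = f u (0 : V)
    rw [map_zero, map_zero, LinearMap.zero_apply]
  · intro x y
    apply adj_eq h hnd
    intro u w
    show f (((x : End F U) u : V) + ((y : End F U) u : V)) w =
      f u (((adj h x : End F U) w : V) + ((adj h y : End F U) w : V))
    rw [map_add, map_add, LinearMap.add_apply, adj_spec, adj_spec]

theorem nontriv_bl (h : Std ρ f Q t H) (hU : U ∈ Bl ρ t H) : Nontrivial U := by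
  rw [Submodule.nontrivial_iff_ne_bot]
  exact h.bl_ne_bot hU

theorem idem_bl (h : Std ρ f Q t H) (hS : SX ρ t H) (hU : U ∈ Bl ρ t H) {e : AU ρ t H U} (he : e * e = e)
    (hσ : adj h e = e) : e = 0 ∨ e = 1 := by
  let M : Submodule F V := (LinearMap.range (e : End F U)).map U.subtype
  have hM : ∀ v, v ∈ M ↔ ∃ u : U, ((e : End F U) u : V) = v := by
    intro v
    constructor
    · rintro ⟨_, ⟨u, rfl⟩, rfl⟩
      exact ⟨u, rfl⟩
    · rintro ⟨u, rfl⟩
      exact ⟨_, ⟨u, rfl⟩, rfl⟩
  have hee : ∀ u : U, (e : End F U) ((e : End F U) u) = (e : End F U) u := by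
    intro u
    have h1 := LinearMap.congr_fun (congrArg Subtype.val he) u
    exact h1
  by_cases h0 : M = ⊥
  · left
    apply Subtype.ext
    apply LinearMap.ext
    intro u
    apply Subtype.ext
    have h1 : ((e : End F U) u : V) ∈ M := (hM _).2 ⟨u, rfl⟩
    rw [h0, Submodule.mem_bot] at h1
    exact h1
  · right
    have h1 : M = U := by
      refine nd_sub h hS hU ?_ ?_ ?_ h0
      · intro v hv
        obtain ⟨u, rfl⟩ := (hM v).1 hv
        exact Subtype.coe_prop _
      · intro z hz m hm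
        obtain ⟨u, rfl⟩ := (hM m).1 hm
        obtain ⟨a, ha, hau⟩ := exists_zu hz (bl_inv h hU (fun z' hz' => h.comm_zs hz hz'))
        refine (hM _).2 ⟨a u, ?_⟩
        have h2 := LinearMap.congr_fun (au_comm h (e : End F U) e.2 a (Algebra.subset_adjoin ha)) u
        rw [Module.End.mul_apply, Module.End.mul_apply] at h2
        rw [h2, hau]
      · intro v hv hx
        obtain ⟨u, rfl⟩ := (hM v).1 hv
        refine h.nd_bl hU _ (Subtype.coe_prop _) ?_
        intro w hw
        have h2 := adj_spec h e ⟨w, hw⟩ ((e : End F U) u)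
        rw [hσ, hee] at h2
        rw [← h2]
        exact hx _ ((hM _).2 ⟨⟨w, hw⟩, rfl⟩)
    apply Subtype.ext
    apply LinearMap.ext
    intro u
    have h2 : (u : V) ∈ M := by rw [h1]; exact u.2
    obtain ⟨w, hw⟩ := (hM _).1 h2
    have h3 : (e : End F U) w = u := Subtype.ext hw
    rw [← h3, hee]
    rfl

theorem ne_bl (h : Std ρ f Q t H) (hU : U ∈ Bl ρ t H) : ∃ x : AU ρ t H U, adj h x ≠ x := by
  have hU' := hU
  obtain ⟨z, hz, rfl, hz1, -⟩ := hU
  obtain ⟨a, ha, hau⟩ := exists_zu (U := sp ρ z) hz (bl_inv h hU' (fun z' hz' => h.comm_zs hz hz'))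
  refine ⟨⟨a, Algebra.subset_adjoin ha⟩, fun hcon => hz1 ?_⟩
  have h1 : ∀ u w : sp ρ z, f (a u : V) w = f u (a w : V) := by
    intro u w
    have := adj_spec h ⟨a, Algebra.subset_adjoin ha⟩ u w
    rwa [hcon] at this
  have h2 : ∀ w : sp ρ z, a (a w) = w := by
    intro w
    have h3 : (a * a : End F (sp ρ z)) = 1 := by
      apply adj_unique (h.nd_bl hU')
      intro u w
      show f (u : V) (a (a w) : V) = f u (w : V)
      rw [← h1, hau, hau, h.iso]
    exact LinearMap.congr_fun h3 w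
  have h3 : z * z = 1 := by
    apply eq_of_parts h.inj (h.nd_bl hU')
    · intro u hu
      rw [mul_ap, one_ap, ← hau ⟨u, hu⟩, ← hau, h2]
    · intro w hw
      rw [mul_ap, (mem_Orth_sp h.toIsoG).1 hw, (mem_Orth_sp h.toIsoG).1 hw, one_ap]
  obtain ⟨k, hk⟩ := hz.2.1
  have h4 : orderOf z ∣ 2 := orderOf_dvd_of_pow_eq_one (by rw [pow_two, h3])
  have h5 : orderOf z ∣ t ^ k := orderOf_dvd_of_pow_eq_one hk
  have h6 : Nat.Coprime 2 (t ^ k) := (Nat.coprime_two_left.2 (h.hto.pow))
  have h7 := Nat.dvd_gcd h4 h5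
  rw [h6] at h7
  exact orderOf_eq_one_iff.1 (Nat.dvd_one.1 h7)

theorem card_au (h : Std ρ f Q t H) (hS : SX ρ t H) (hU : U ∈ Bl ρ t H) : Nat.card (AU ρ t H U) = Nat.card U := by
  obtain ⟨v, hv⟩ := exists_gen' h hS hU
  refine Nat.card_congr (Equiv.ofBijective (fun x : AU ρ t H U => (x : End F U) v) ⟨?_, ?_⟩)
  · intro x y hxy
    apply Subtype.ext
    apply LinearMap.ext
    intro u
    obtain ⟨b, hb, rfl⟩ := hv u
    have h1 := LinearMap.congr_fun (au_comm h (x : End F U) x.2 b hb) v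
    have h2 := LinearMap.congr_fun (au_comm h (y : End F U) y.2 b hb) v
    rw [Module.End.mul_apply, Module.End.mul_apply] at h1 h2
    rw [h1, h2]
    exact congrArg b hxy
  · intro u
    obtain ⟨x, hx, hxu⟩ := hv u
    exact ⟨⟨x, hx⟩, hxu.symm⟩

/-- **the norm one elements** -/
theorem card_norm (h : Std ρ f Q t H) (hS : SX ρ t H) (hU : U ∈ Bl ρ t H) :
    ∃ m : ℕ, finrank F U = 2 * m ∧
      Nat.card {x : AU ρ t H U // x * adj h x = 1} ≤ Nat.card F ^ m + 1 := by
  have hnd := h.nd_bl hU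
  have hnt := nontriv_bl h hU
  have hfe : Finite (End F U) := Finite.of_injective (fun a : End F U => (a : U → U)) DFunLike.coe_injective
  have hfa : Finite (AU ρ t H U) := Finite.of_injective (fun a : AU ρ t H U => (a : End F U)) Subtype.val_injective
  letI := cr (U := U) h
  obtain ⟨σ, hσ⟩ := exists_sigma (U := U) h hnd
  have hinv : Inv2 σ :=
    { red := by
        intro x hx
        apply Subtype.ext
        apply LinearMap.ext
        intro u
        have h1 : ((x : End F U) ^ 2) u = 0 := by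
          rw [pow_two]
          exact LinearMap.congr_fun (congrArg Subtype.val hx) u
        exact eq_zero_of_pow (zu_comm h) (tN h) (zu_pow h) x.2 h1
      inv := fun x => by rw [hσ, hσ, adj_adj h hnd]
      ne := by
        obtain ⟨x, hx⟩ := ne_bl h hU
        exact ⟨x, by rw [hσ]; exact hx⟩
      idem := fun e he he' => idem_bl h hS hU he (by rw [← hσ]; exact he') }
  obtain ⟨h1, -⟩ := hinv.card_sq
  have h2 := hinv.card_norm_one
  let Fx : Submodule F (AU ρ t H U) :=
    { carrier := {x | adj h x = x}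
      add_mem' := fun {a b} ha hb => by
        show adj h (a + b) = a + b
        rw [← hσ, map_add, hσ, hσ, ha, hb]
      zero_mem' := by
        show adj h 0 = 0
        rw [← hσ, map_zero]
      smul_mem' := fun c x hx => by
        apply adj_eq h hnd
        intro u w
        show f (c • ((x : End F U) u : V)) w = f u (c • ((x : End F U) w : V))
        have hx' : adj h x = x := hx
        rw [map_smul, map_smul, LinearMap.smul_apply, adj_spec h, hx'] }
  have hFx : Nat.card {x : AU ρ t H U // σ x = x} = Nat.card Fx :=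
    Nat.card_congr (Equiv.subtypeEquivRight (fun x => by rw [hσ]; exact Iff.rfl))
  have h3 : Nat.card Fx = Nat.card F ^ finrank F Fx := Module.natCard_eq_pow_finrank
  have h4 : Nat.card U = Nat.card F ^ finrank F U := Module.natCard_eq_pow_finrank
  rw [card_au h hS hU, hFx, h4, h3, ← pow_add] at h1
  refine ⟨finrank F Fx, ?_, ?_⟩
  · have h5 := Nat.pow_right_injective (Finite.one_lt_card (α := F)) h1
    omega
  · rw [hFx, h3] at h2
    refine le_trans (le_of_eq ?_) h2
    exact Nat.card_congr (Equiv.subtypeEquivRight (fun x => by rw [hσ]))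

end Cfsg.Agent.H22.DPi
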