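import Mathlib

/-!
# Commuting endomorphisms of finite order prime to the characteristic (helper22)

`fix_pow` : the elements of the algebra generated by them satisfy `x ^ N = x` for some `N ≥ 2`; `exists_inv_compl`
(Maschke).
-/

set_option autoImplicit false

namespace Cfsg.Agent.H22.DPi

open Module

variable {F : Type*} [Field F] [Finite F] {V : Type*} [AddCommGroup V] [Module F V]

/-- **`x ^ N = x`** -/
theorem fix_pow [Nontrivial V] {S : Set (End F V)} (hc : ∀ a ∈ S, ∀ b ∈ S, a * b = b * a) {n : ℕ} (hn : (n : F) ≠ 0)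
    (hS : ∀ a ∈ S, a ^ n = 1) : ∃ N : ℕ, 2 ≤ N ∧ ∀ x ∈ Algebra.adjoin F S, x ^ N = x := by
  have := Fintype.ofFinite F
  obtain ⟨p, hpc⟩ := CharP.exists F
  have hp : p.Prime := CharP.char_is_prime F p
  have hfp := Fact.mk hp
  have hpE : CharP (End F V) p := charP_of_injective_algebraMap (algebraMap F (End F V)).injective p
  obtain ⟨k, hk1, hk2⟩ := FiniteField.card F p
  have hpn : ¬ p ∣ n := fun h => hn ((CharP.cast_eq_zero_iff F p n).2 h)
  have hn0 : 0 < n := by
    rcases Nat.eq_zero_or_pos n with h | h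
    · rw [h] at hpn
      exact (hpn (dvd_zero p)).elim
    · exact h
  have hcop : (Fintype.card F).Coprime n := by
    rw [hk2]
    exact Nat.Coprime.pow_left _ ((Nat.Prime.coprime_iff_not_dvd hp).2 hpn)
  have hphi := Nat.totient_pos.2 hn0
  refine ⟨Fintype.card F ^ n.totient, ?_, ?_⟩
  · calc 2 ≤ Fintype.card F := Fintype.one_lt_card
      _ = Fintype.card F ^ 1 := (pow_one _).symm
      _ ≤ Fintype.card F ^ n.totient := Nat.pow_le_pow_right Fintype.card_pos hphi
  · have hN : Fintype.card F ^ n.totient = p ^ ((k : ℕ) * n.totient) := by rw [hk2, pow_mul]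
    intro x hx
    induction hx using Algebra.adjoin_induction with
    | mem x hx =>
      have h1 : Fintype.card F ^ n.totient ≡ 1 [MOD n] := Nat.ModEq.pow_totient hcop
      have h2 : 1 ≤ Fintype.card F ^ n.totient := Nat.one_le_pow _ _ Fintype.card_pos
      obtain ⟨j, hj⟩ := (Nat.modEq_iff_dvd' h2).1 h1.symm
      have h3 : Fintype.card F ^ n.totient = n * j + 1 := by omega
      rw [h3, pow_succ, pow_mul, hS x hx, one_pow, one_mul]
    | algebraMap c => rw [← map_pow, FiniteField.pow_card_pow]
    | add x y hx hy ihx ihy =>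
      have hxy : Commute x y := by
        have h := (Algebra.adjoinCommRingOfComm F hc).mul_comm ⟨x, hx⟩ ⟨y, hy⟩
        exact congrArg Subtype.val h
      rw [hN, add_pow_char_pow_of_commute _ _ hxy, ← hN, ihx, ihy]
    | mul x y hx hy ihx ihy =>
      have hxy : Commute x y := by
        have h := (Algebra.adjoinCommRingOfComm F hc).mul_comm ⟨x, hx⟩ ⟨y, hy⟩
        exact congrArg Subtype.val h
      rw [hxy.mul_pow, ihx, ihy]

/-- an element some power of which kills `v` kills `v` -/
theorem eq_zero_of_pow [Nontrivial V] {S : Set (End F V)} (hc : ∀ a ∈ S, ∀ b ∈ S, a * b = b * a) {n : ℕ} (hn : (n : F) ≠ 0)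
    (hS : ∀ a ∈ S, a ^ n = 1) {x : End F V} (hx : x ∈ Algebra.adjoin F S) {m : ℕ} {v : V} (h : (x ^ m) v = 0) :
    x v = 0 := by
  obtain ⟨N, hN2, hN⟩ := fix_pow hc hn hS
  have h1 : ∀ j : ℕ, x ^ (N ^ j) = x := by
    intro j
    induction j with
    | zero => rw [pow_zero, pow_one]
    | succ j ih => rw [pow_succ, pow_mul, ih, hN x hx]
  have h2 : m ≤ N ^ m := (Nat.lt_pow_self (by omega)).le
  rw [← h1 m, show N ^ m = (N ^ m - m) + m by omega, pow_add, Module.End.mul_apply, h, map_zero]

/-- the elements of the algebra preserve the invariant subspaces -/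
theorem adjoin_mem {S : Set (End F V)} {W : Submodule F V} (hW : ∀ a ∈ S, ∀ w ∈ W, a w ∈ W) {x : End F V}
    (hx : x ∈ Algebra.adjoin F S) : ∀ w ∈ W, x w ∈ W := by
  induction hx using Algebra.adjoin_induction with
  | mem x hx => exact hW x hx
  | algebraMap c => exact fun w hw => W.smul_mem c hw
  | add x y _ _ ihx ihy => exact fun w hw => W.add_mem (ihx w hw) (ihy w hw)
  | mul x y _ _ ihx ihy => exact fun w hw => ihx _ (ihy w hw)

/-- **Maschke** -/
theorem exists_inv_compl [Nontrivial V] [FiniteDimensional F V] {S : Set (End F V)}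
    (hc : ∀ a ∈ S, ∀ b ∈ S, a * b = b * a) {n : ℕ} (hn : (n : F) ≠ 0)
    (hS : ∀ a ∈ S, a ^ n = 1) {W : Submodule F V} (hW : ∀ a ∈ S, ∀ w ∈ W, a w ∈ W) :
    ∃ W' : Submodule F V, (∀ a ∈ S, ∀ w ∈ W', a w ∈ W') ∧ IsCompl W W' := by
  let A := Algebra.adjoin F S
  let _ : CommRing A := Algebra.adjoinCommRingOfComm F hc
  have hred : IsReduced A := by
    refine ⟨fun x hx => ?_⟩
    obtain ⟨m, hm⟩ := hx
    apply Subtype.ext
    apply LinearMap.ext
    intro v
    have h1 : ((x : End F V) ^ m) v = 0 := by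
      have h2 : ((x ^ m : A) : End F V) = 0 := congrArg Subtype.val hm
      have h3 : ((x ^ m : A) : End F V) = (x : End F V) ^ m := by
        induction m with
        | zero => rfl
        | succ m _ => rfl
      rw [← h3, h2]
      rfl
    exact eq_zero_of_pow hc hn hS x.2 h1
  have hart : IsArtinianRing A := .of_finite F A
  have hss : IsSemisimpleRing A := IsArtinianRing.isSemisimpleRing_of_isReduced A
  let WA : Submodule A V :=
    { carrier := W
      add_mem' := fun ha hb => W.add_mem ha hb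
      zero_mem' := W.zero_mem
      smul_mem' := fun x w hw => adjoin_mem hW x.2 w hw }
  obtain ⟨q, hq⟩ := exists_isCompl WA
  let q' : Submodule F V :=
    { carrier := q
      add_mem' := fun ha hb => q.add_mem ha hb
      zero_mem' := q.zero_mem
      smul_mem' := fun c w hw => by
        have h1 := q.smul_mem (⟨algebraMap F (End F V) c, Subalgebra.algebraMap_mem _ c⟩ : A) hw
        exact h1 }
  refine ⟨q', ?_, ?_⟩
  · intro a ha w hw
    exact q.smul_mem (⟨a, Algebra.subset_adjoin ha⟩ : A) hw
  · constructor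
    · rw [Submodule.disjoint_def]
      intro x hx hx'
      exact (Submodule.disjoint_def.1 hq.disjoint) x hx hx'
    · rw [codisjoint_iff, eq_top_iff]
      intro x _
      have h1 : x ∈ WA ⊔ q := by rw [hq.sup_eq_top]; trivial
      obtain ⟨a, ha, b, hb, rfl⟩ := Submodule.mem_sup.1 h1
      exact Submodule.mem_sup.2 ⟨a, ha, b, hb, rfl⟩

end Cfsg.Agent.H22.DPi
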