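import Cfsg.Agent.H572.RV.SylC
import Cfsg.Agent.H22.DPi.Semi

/-!
# The elements centralising a Sylow `t`-subgroup generated by small elements (helper22)

`block_fix` : they contain no element of order `p` moving a vector of a block.
-/

set_option autoImplicit false
set_option linter.unusedSectionVars false

namespace Cfsg.Agent.H22.DPi

open Module Cfsg.Agent.H167.OP Cfsg.Agent.H170.HL Cfsg.Agent.H988.CPi Cfsg.Agent.H560.HallKey
  Cfsg.Agent.H553.OddHall Cfsg.Agent.H572.RV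

variable {F : Type*} [Field F] [Finite F] {V : Type*} [AddCommGroup V] [Module F V] [Finite V]
  [FiniteDimensional F V] {K : Type*} [Group K] [Finite K] {t : ℕ}
  {ρ : Representation F K V} {f : V →ₗ[F] V →ₗ[F] F} {Q : V → F} {H : Subgroup K}

/-- `t`-elements centralising `Zs` belong to `H` -/
def SX (ρ : Representation F K V) (t : ℕ) (H : Subgroup K) : Prop :=
  ∀ y : K, (∃ k : ℕ, y ^ t ^ k = 1) → (∀ z ∈ Zs ρ t H, y * z = z * y) → y ∈ H

theorem pow_tt (ht : t.Prime) {z : K} (hz : ∃ k : ℕ, z ^ t ^ k = 1) : z ^ t ^ Nat.card K = 1 := by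
  obtain ⟨k, hk⟩ := hz
  obtain ⟨j, -, hj⟩ := (Nat.dvd_prime_pow ht).1 (orderOf_dvd_of_pow_eq_one hk)
  have h1 : orderOf z ≤ Nat.card K := Nat.le_of_dvd Nat.card_pos (orderOf_dvd_natCard z)
  have h2 : j < t ^ j := Nat.lt_pow_self ht.one_lt
  have h3 : j ≤ Nat.card K := by omega
  have h4 : orderOf z ∣ t ^ Nat.card K := by
    rw [hj]
    exact pow_dvd_pow t h3
  exact orderOf_dvd_iff_pow_eq_one.1 h4

/-- **nondegenerate invariant subspaces of blocks** -/
theorem nd_sub (h : Std ρ f Q t H) (hS : SX ρ t H) {U : Submodule F V} (hU : U ∈ Bl ρ t H) {M : Submodule F V}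
    (hM : M ≤ U) (hMi : ∀ z ∈ Zs ρ t H, ∀ m ∈ M, ρ z m ∈ M) (hMn : ND f M) (hM0 : M ≠ ⊥) : M = U := by
  obtain ⟨z, hz, rfl, hz1, hmin⟩ := hU
  obtain ⟨k, hk⟩ := h.toIsoG.exists_part hMn (hMi z hz)
  have hkt : ∃ m : ℕ, k ^ t ^ m = 1 := hk.tel h.toIsoG hMn (hMi z hz) hz.2.1
  have hkc : ∀ y ∈ Zs ρ t H, k * y = y * k := by
    intro y hy
    have h1 := hk.conj h.toIsoG y
    have h2 : M.map (ρ y) = M := by
      apply map_eq_of_le
      rintro _ ⟨m, hm, rfl⟩
      exact hMi y hy m hm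
    rw [h2, h.comm_zs hy hz, mul_inv_cancel_right] at h1
    have h3 := h1.unique h.inj hMn hk
    calc k * y = (y * k * y⁻¹) * y := by rw [h3]
      _ = y * k := by group
  have hkH : k ∈ H := hS k hkt hkc
  have hle : sp ρ k ≤ M := hk.sp_le hMn (hMi z hz)
  have hkZ : k ∈ Zs ρ t H := ⟨hkH, small_of_sp_le hkt hz.2 (hle.trans hM)⟩
  have hk1 : k ≠ 1 := by
    intro h1
    apply hM0
    rw [eq_bot_iff]
    intro m hm
    have h2 := hk.1 m hm
    rw [h1, one_ap] at h2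
    have h3 : m ∈ Orth f (sp ρ z) := (mem_Orth_sp h.toIsoG).2 h2.symm
    exact h.ndz hz m (hM hm) (fun x hx => h3 x hx)
  exact le_antisymm hM ((hmin k hkZ hk1 (hle.trans hM)).symm.le.trans hle)

/-- the small elements as endomorphisms -/
def ZE (ρ : Representation F K V) (t : ℕ) (H : Subgroup K) : Set (End F V) := ρ '' Zs ρ t H

theorem ze_comm (h : Std ρ f Q t H) : ∀ a ∈ ZE ρ t H, ∀ b ∈ ZE ρ t H, a * b = b * a := by
  rintro _ ⟨a, ha, rfl⟩ _ ⟨b, hb, rfl⟩
  rw [← map_mul, h.comm_zs ha hb, map_mul]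

theorem ze_pow (h : Std ρ f Q t H) : ∀ a ∈ ZE ρ t H, a ^ t ^ Nat.card K = 1 := by
  rintro _ ⟨a, ha, rfl⟩
  rw [← map_pow, pow_tt h.ht ha.2.1, map_one]

theorem tN (h : Std ρ f Q t H) : ((t ^ Nat.card K : ℕ) : F) ≠ 0 := by
  rw [Nat.cast_pow]
  exact pow_ne_zero _ h.htF

/-- **invariant subspaces of blocks which are not totally isotropic** -/
theorem niso_sub (h : Std ρ f Q t H) (hS : SX ρ t H) {U : Submodule F V} (hU : U ∈ Bl ρ t H) {M : Submodule F V}
    (hM : M ≤ U) (hMi : ∀ z ∈ Zs ρ t H, ∀ m ∈ M, ρ z m ∈ M) {a b : V} (ha : a ∈ M) (hb : b ∈ M)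
    (hab : f a b ≠ 0) : M = U := by
  have hnt : Nontrivial V := ⟨a, 0, by rintro rfl; exact hab (by rw [map_zero, LinearMap.zero_apply])⟩
  have hMm : ∀ z ∈ Zs ρ t H, M.map (ρ z) = M := by
    intro z hz
    apply map_eq_of_le
    rintro _ ⟨m, hm, rfl⟩
    exact hMi z hz m hm
  have hrad : ∀ x ∈ ZE ρ t H, ∀ w ∈ M ⊓ Orth f M, x w ∈ M ⊓ Orth f M := by
    rintro _ ⟨z, hz, rfl⟩ w ⟨hw, hw'⟩
    refine ⟨hMi z hz w hw, ?_⟩
    intro u hu
    have h1 : ρ z⁻¹ u ∈ M := mem_of_map (map_inv_of_map (hMm z hz)) hu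
    have h2 := hw' _ h1
    have h3 := h.iso z (ρ z⁻¹ u) w
    rw [ap_inv] at h3
    rw [h3, h2]
  obtain ⟨W', hW'i, hW'c⟩ := exists_inv_compl (ze_comm h) (tN h) (ze_pow h) hrad
  have hdec : ∀ x ∈ M, ∃ r ∈ M ⊓ Orth f M, ∃ w ∈ M ⊓ W', x = r + w := by
    intro x hx
    have h1 : x ∈ (M ⊓ Orth f M) ⊔ W' := by rw [hW'c.sup_eq_top]; trivial
    obtain ⟨r, hr, w, hw, rfl⟩ := Submodule.mem_sup.1 h1
    refine ⟨r, hr, w, ⟨?_, hw⟩, rfl⟩
    have := M.sub_mem hx hr.1
    rwa [add_sub_cancel_left] at this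
  have hle : M ⊓ W' ≤ M := inf_le_left
  have h1 : M ⊓ W' = U := by
    refine nd_sub h hS hU (hle.trans hM) ?_ ?_ ?_
    · rintro z hz m ⟨hm, hm'⟩
      exact ⟨hMi z hz m hm, hW'i _ ⟨z, hz, rfl⟩ m hm'⟩
    · rintro u ⟨hu, hu'⟩ hx
      have h2 : u ∈ M ⊓ Orth f M := by
        refine ⟨hu, ?_⟩
        intro x hxM
        obtain ⟨r, hr, w, hw, rfl⟩ := hdec x hxM
        rw [map_add, LinearMap.add_apply, hx w hw, add_zero]
        exact h.toIsoG.refl _ _ (hr.2 u hu)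
      exact (Submodule.disjoint_def.1 hW'c.disjoint) u h2 hu'
    · intro h0
      apply hab
      obtain ⟨r, hr, w, hw, rfl⟩ := hdec b hb
      rw [h0, Submodule.mem_bot] at hw
      rw [hw, add_zero]
      exact hr.2 a ha
  exact le_antisymm hM (h1.symm.le.trans hle)

/-- **a block is generated by a vector** -/
theorem exists_gen (h : Std ρ f Q t H) (hS : SX ρ t H) {U : Submodule F V} (hU : U ∈ Bl ρ t H) :
    ∃ v ∈ U, ∀ u ∈ U, ∃ x ∈ Algebra.adjoin F (ZE ρ t H), u = x v := by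
  have hU' := hU
  obtain ⟨z, hz, rfl, hz1, -⟩ := hU
  obtain ⟨ε, hε, hsym⟩ := h.sym
  obtain ⟨v, hv, hfv⟩ := exists_vec f h.nd hε hsym (y := ρ z) (t := t ^ Nat.card K) (h.hto.pow) (tN h)
    (by rw [← map_pow, pow_tt h.ht hz.2.1, map_one])
    (by intro h0; exact hz1 (h.inj (by rw [h0, map_one]))) (h.iso z)
  rw [pow_one] at hfv
  let M : Submodule F V := (Subalgebra.toSubmodule (Algebra.adjoin F (ZE ρ t H))).map (LinearMap.applyₗ v)
  have hMm : ∀ u, u ∈ M ↔ ∃ x ∈ Algebra.adjoin F (ZE ρ t H), x v = u := fun u => Iff.rfl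
  have hM : M = sp ρ z := by
    refine niso_sub h hS hU' ?_ ?_ (a := v) (b := ρ z v) ?_ ?_ hfv
    · intro u hu
      obtain ⟨x, hx, rfl⟩ := (hMm u).1 hu
      refine adjoin_mem ?_ hx v hv
      rintro _ ⟨y, hy, rfl⟩ w hw
      exact map_mem_of_comm (h.comm_zs hy hz) hw
    · intro y hy m hm
      obtain ⟨x, hx, rfl⟩ := (hMm m).1 hm
      exact (hMm _).2 ⟨ρ y * x, mul_mem (Algebra.subset_adjoin ⟨y, hy, rfl⟩) hx, rfl⟩
    · exact (hMm _).2 ⟨1, one_mem _, rfl⟩
    · exact (hMm _).2 ⟨ρ z, Algebra.subset_adjoin ⟨z, hz, rfl⟩, rfl⟩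
  refine ⟨v, hv, fun u hu => ?_⟩
  rw [← hM] at hu
  obtain ⟨x, hx, hxu⟩ := (hMm u).1 hu
  exact ⟨x, hx, hxu.symm⟩

/-- **`p`-elements centralising `Zs` are trivial on the blocks** -/
theorem block_fix (h : Std ρ f Q t H) (hS : SX ρ t H) {p : ℕ} (hp : p.Prime) [CharP F p] {x : K}
    (hx : ∃ k : ℕ, x ^ p ^ k = 1) (hxc : ∀ z ∈ Zs ρ t H, x * z = z * x) {U : Submodule F V}
    (hU : U ∈ Bl ρ t H) : ∀ u ∈ U, ρ x u = u := by
  have hnt : Nontrivial V := by
    by_contra h0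
    rw [not_nontrivial_iff_subsingleton] at h0
    exact h.bl_ne_bot hU (by rw [eq_bot_iff]; intro u _; rw [Subsingleton.elim u 0]; exact Submodule.zero_mem _)
  obtain ⟨v, hv, hgen⟩ := exists_gen h hS hU
  have hfp := Fact.mk hp
  have hpE : CharP (End F V) p := charP_of_injective_algebraMap (algebraMap F (End F V)).injective p
  have hxU : ∀ u ∈ U, ρ x u ∈ U := by
    obtain ⟨z, hz, rfl, -⟩ := hU
    intro u hu
    exact map_mem_of_comm (hxc z hz) hu
  have hUi : ∀ a ∈ ZE ρ t H, ∀ w ∈ U, a w ∈ U := by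
    obtain ⟨z, hz, rfl, -⟩ := hU
    rintro _ ⟨y, hy, rfl⟩ w hw
    exact map_mem_of_comm (h.comm_zs hy hz) hw
  have hcx : ∀ a ∈ Algebra.adjoin F (ZE ρ t H), ρ x * a = a * ρ x := by
    intro a ha
    induction ha using Algebra.adjoin_induction with
    | mem a ha =>
      obtain ⟨y, hy, rfl⟩ := ha
      rw [← map_mul, hxc y hy, map_mul]
    | algebraMap c => exact ((Algebra.commutes c (ρ x))).symm
    | add a b _ _ iha ihb => rw [mul_add, iha, ihb, add_mul]
    | mul a b _ _ iha ihb => rw [← mul_assoc, iha, mul_assoc, ihb, mul_assoc]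
  have hcc : ∀ a ∈ Algebra.adjoin F (ZE ρ t H), ∀ b ∈ Algebra.adjoin F (ZE ρ t H), a * b = b * a := by
    intro a ha b hb
    have h1 := (Algebra.adjoinCommRingOfComm F (ze_comm h)).mul_comm ⟨a, ha⟩ ⟨b, hb⟩
    exact congrArg Subtype.val h1
  obtain ⟨α, hα, hαv⟩ := hgen (ρ x v - v) (U.sub_mem (hxU v hv) hv)
  have hαu : ∀ u ∈ U, (ρ x - 1) u = α u := by
    intro u hu
    obtain ⟨β, hβ, rfl⟩ := hgen u hu
    calc (ρ x - 1) (β v) = ((ρ x - 1) * β) v := rfl
      _ = (β * (ρ x - 1)) v := by rw [sub_mul, mul_sub, hcx β hβ, one_mul, mul_one]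
      _ = β (ρ x v - v) := rfl
      _ = β (α v) := by rw [hαv]
      _ = (β * α) v := rfl
      _ = (α * β) v := by rw [hcc β hβ α hα]
      _ = α (β v) := rfl
  have hpow : ∀ m : ℕ, ∀ u ∈ U, ((ρ x - 1) ^ m) u = (α ^ m) u := by
    intro m
    induction m with
    | zero => intro u _; rw [pow_zero, pow_zero]
    | succ m ih =>
      intro u hu
      rw [pow_succ, pow_succ, Module.End.mul_apply, Module.End.mul_apply, hαu u hu]
      exact ih _ (adjoin_mem hUi hα u hu)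
  obtain ⟨k, hk⟩ := hx
  have h0 : (ρ x - 1) ^ p ^ k = 0 := by
    rw [sub_pow_char_pow_of_commute _ _ (Commute.one_right _), one_pow, ← map_pow, hk, map_one, sub_self]
  intro u hu
  have h1 : (α ^ p ^ k) u = 0 := by rw [← hpow _ u hu, h0, LinearMap.zero_apply]
  have h2 := eq_zero_of_pow (ze_comm h) (tN h) (ze_pow h) hα h1
  rw [← hαu u hu] at h2
  exact sub_eq_zero.1 h2

/-- if `closure Zs` is a Sylow `t`-subgroup of `K`, the `t`-elements centralising it belong to `H` -/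
theorem sx_of_syl (h : Std ρ f Q t H) (hsyl : ¬ t ∣ (Subgroup.closure (Zs ρ t H)).index) : SX ρ t H := by
  intro y hy hyc
  have htf := Fact.mk h.ht
  set T := Subgroup.closure (Zs ρ t H) with hT
  have hyT : Subgroup.closure ({y} ∪ Zs ρ t H : Set K) ≤ T := by
    have h1 : IsPGroup t (Subgroup.closure ({y} ∪ Zs ρ t H : Set K)) := by
      refine (isPGroup_closure ?_ ?_).2
      · rintro a (rfl | ha) b (rfl | hb)
        · rfl
        · exact hyc b hb
        · exact (hyc a ha).symm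
        · exact h.comm_zs ha hb
      · rintro a (rfl | ha)
        · exact hy
        · exact ha.2.1
    have h2 : T ≤ Subgroup.closure ({y} ∪ Zs ρ t H : Set K) := Subgroup.closure_mono Set.subset_union_right
    have h3 : T.relIndex (Subgroup.closure ({y} ∪ Zs ρ t H : Set K)) = 1 := by
      by_contra hne
      obtain ⟨n, hn⟩ := IsPGroup.iff_card.mp h1
      obtain ⟨j, hj, hj'⟩ := (Nat.dvd_prime_pow h.ht).1 (hn ▸ Subgroup.relIndex_dvd_card T
        (Subgroup.closure ({y} ∪ Zs ρ t H : Set K)))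
      rcases Nat.eq_zero_or_pos j with h0 | h0
      · rw [h0, pow_zero] at hj'
        exact hne hj'
      · apply hsyl
        have h4 : t ∣ T.relIndex (Subgroup.closure ({y} ∪ Zs ρ t H : Set K)) := by
          rw [hj']
          exact dvd_pow_self t h0.ne'
        exact h4.trans (Subgroup.relIndex_dvd_index_of_le h2)
    exact Subgroup.relIndex_eq_one.mp h3
  exact closure_le_H (hyT (Subgroup.subset_closure (Or.inl rfl)))

end Cfsg.Agent.H22.DPi
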