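import Cfsg.Agent.H22.DPi.BlockCard

/-!
# The order of the centraliser of `T` (helper22)

`block_card`, `wb_eq`, `finrank_wb`, `card_cent_le`.
-/

set_option autoImplicit false
set_option linter.unusedSectionVars false

namespace Cfsg.Agent.H22.DPi

open Module Cfsg.Agent.H167.OP Cfsg.Agent.H170.HL Cfsg.Agent.H988.CPi Cfsg.Agent.H560.HallKey
  Cfsg.Agent.H553.OddHall Cfsg.Agent.H572.RV

variable {F : Type*} [Field F] [Finite F] {V : Type*} [AddCommGroup V] [Module F V] [Finite V]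
  [FiniteDimensional F V] {K : Type*} [Group K] [Finite K] {t : ℕ}
  {ρ : Representation F K V} {f : V →ₗ[F] V →ₗ[F] F} {Q : V → F} {H : Subgroup K} {U : Submodule F V}

/-- the centraliser of `T` in the isometry group of `U` -/
def CB (ρ : Representation F K V) (f : V →ₗ[F] V →ₗ[F] F) (t : ℕ) (H : Subgroup K) (U : Submodule F V) :
    Subgroup K where
  carrier := {g | (∀ w ∈ Orth f U, ρ g w = w) ∧ ∀ z ∈ Zs ρ t H, g * z = z * g}
  mul_mem' := fun {a b} ha hb => ⟨fun w hw => by rw [mul_ap, hb.1 w hw, ha.1 w hw],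
    fun z hz => by rw [mul_assoc, hb.2 z hz, ← mul_assoc, ha.2 z hz, mul_assoc]⟩
  one_mem' := ⟨fun w _ => one_ap ρ w, fun z _ => by rw [one_mul, mul_one]⟩
  inv_mem' := fun {a} ha => ⟨fun w hw => by
      have h1 := ha.1 w hw
      nth_rewrite 1 [← h1]
      exact inv_ap ρ a w,
    fun z hz => by
      have h1 := ha.2 z hz
      calc a⁻¹ * z = a⁻¹ * (z * a) * a⁻¹ := by group
        _ = z * a⁻¹ := by rw [← h1]; group⟩

/-- an element centralising `T` acts on a block as an element of the algebra -/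
theorem exists_elt (h : Std ρ f Q t H) (hS : SX ρ t H) (hU : U ∈ Bl ρ t H) {g : K}
    (hg : ∀ z ∈ Zs ρ t H, g * z = z * g) :
    ∃ x : AU ρ t H U, x * adj h x = 1 ∧ ∀ u : U, ((x : End F U) u : V) = ρ g u := by
  obtain ⟨v, hv⟩ := exists_gen' h hS hU
  have hgU := bl_inv h hU hg
  obtain ⟨x, hx, hxv⟩ := hv ⟨ρ g v, hgU v v.2⟩
  have hcomm : ∀ y ∈ AU ρ t H U, ∀ u : U, ρ g (y u : V) = (y ⟨ρ g u, hgU u u.2⟩ : V) := by
    intro y hy
    induction hy using Algebra.adjoin_induction with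
    | mem a ha =>
      obtain ⟨z, hz, haz⟩ := ha
      intro u
      rw [haz, haz, ← mul_ap, hg z hz, mul_ap]
    | algebraMap c =>
      intro u
      show ρ g (c • (u : V)) = c • ρ g u
      rw [map_smul]
    | add a b _ _ iha ihb =>
      intro u
      show ρ g ((a u : V) + (b u : V)) = (a _ : V) + (b _ : V)
      rw [map_add, iha, ihb]
    | mul a b _ _ iha ihb =>
      intro u
      show ρ g (a (b u) : V) = (a (b _) : V)
      rw [iha]
      congr 2
      apply Subtype.ext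
      exact ihb u
  have hxu : ∀ u : U, (x u : V) = ρ g u := by
    intro u
    obtain ⟨y, hy, rfl⟩ := hv u
    rw [hcomm y hy, hxv]
    have h1 := LinearMap.congr_fun (au_comm h x hx y hy) v
    rw [Module.End.mul_apply, Module.End.mul_apply] at h1
    rw [h1]
  refine ⟨⟨x, hx⟩, ?_, hxu⟩
  apply Subtype.ext
  apply adj_unique (h.nd_bl hU)
  intro u w
  have h1 := au_comm h x hx (adj h ⟨x, hx⟩ : End F U) (adj h ⟨x, hx⟩).2
  have h2 := LinearMap.congr_fun h1 w
  rw [Module.End.mul_apply, Module.End.mul_apply] at h2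
  show f (u : V) (x ((adj h ⟨x, hx⟩ : End F U) w) : V) = f u (w : V)
  rw [h2, ← adj_spec h ⟨x, hx⟩ u (x w)]
  show f (x u : V) (x w : V) = _
  rw [hxu, hxu, h.iso]

/-- **the centraliser of `T` on a block** -/
theorem block_card (h : Std ρ f Q t H) (hS : SX ρ t H) (hU : U ∈ Bl ρ t H) :
    ∃ m : ℕ, finrank F U = 2 * m ∧ Nat.card (CB ρ f t H U) ≤ Nat.card F ^ m + 1 := by
  obtain ⟨m, hm, hc⟩ := card_norm h hS hU
  have hfe : Finite (End F U) := Finite.of_injective (fun a : End F U => (a : U → U)) DFunLike.coe_injective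
  have hfa : Finite (AU ρ t H U) := Finite.of_injective (fun a : AU ρ t H U => (a : End F U)) Subtype.val_injective
  refine ⟨m, hm, le_trans ?_ hc⟩
  have hex : ∀ g : CB ρ f t H U, ∃ x : AU ρ t H U, x * adj h x = 1 ∧ ∀ u : U, ((x : End F U) u : V) = ρ (g : K) u :=
    fun g => exists_elt h hS hU g.2.2
  choose φ hφ1 hφ2 using hex
  refine Nat.card_le_card_of_injective (fun g => (⟨φ g, hφ1 g⟩ : {x : AU ρ t H U // x * adj h x = 1})) ?_
  intro a b hab
  have h1 : φ a = φ b := congrArg Subtype.val hab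
  apply Subtype.ext
  apply eq_of_parts h.inj (h.nd_bl hU)
  · intro u hu
    rw [← hφ2 a ⟨u, hu⟩, ← hφ2 b ⟨u, hu⟩, h1]
  · intro w hw
    rw [a.2.1 w hw, b.2.1 w hw]

/-- `[V, T]` is the sum of the blocks -/
theorem wb_eq (h : Std ρ f Q t H) : WB ρ t H = ⨆ U : Bl ρ t H, (U : Submodule F V) := by
  apply le_antisymm
  · have hz : ∀ z ∈ Zs ρ t H, sp ρ z ≤ ⨆ U : Bl ρ t H, (U : Submodule F V) := fun z hz =>
      h.sp_le_of_bl (fun U hU => le_iSup (fun U : Bl ρ t H => (U : Submodule F V)) ⟨U, hU⟩) _ z hz rfl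
    refine CV_le fun d hd => ?_
    suffices h1 : ∀ v, ρ d v - v ∈ ⨆ U : Bl ρ t H, (U : Submodule F V) by
      rintro _ ⟨v, rfl⟩
      exact h1 v
    induction hd using Subgroup.closure_induction with
    | mem z hz' => exact fun v => hz z hz' (mem_sp v)
    | one => intro v; rw [one_ap, sub_self]; exact Submodule.zero_mem _
    | mul a b _ _ iha ihb =>
      intro v
      rw [mul_ap, ← sub_add_sub_cancel (ρ a (ρ b v)) (ρ b v) v]
      exact Submodule.add_mem _ (iha _) (ihb _)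
    | inv a _ ih =>
      intro v
      have h1 := ih (ρ a⁻¹ v)
      rw [ap_inv] at h1
      rw [← neg_sub]
      exact Submodule.neg_mem _ h1
  · apply iSup_le
    rintro ⟨U, z, hz, rfl, -⟩
    exact range_le_CV ρ (Subgroup.subset_closure hz)

theorem finrank_sup_bl (h : Std ρ f Q t H) (s : Finset (Submodule F V)) (hs : ∀ U ∈ s, U ∈ Bl ρ t H) :
    finrank F (s.sup id : Submodule F V) = ∑ U ∈ s, finrank F U := by
  classical
  induction s using Finset.induction_on with
  | empty => rw [Finset.sup_empty, Finset.sum_empty, finrank_bot]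
  | insert U s hU ih =>
    rw [Finset.sup_insert, Finset.sum_insert hU, ← ih (fun W hW => hs W (Finset.mem_insert_of_mem hW)), id]
    have h1 := Submodule.finrank_sup_add_finrank_inf_eq U (s.sup id)
    have h2 : U ⊓ s.sup id = ⊥ := by
      rw [eq_bot_iff]
      rintro u ⟨hu, hu'⟩
      have h3 : s.sup id ≤ Orth f U := by
        apply Finset.sup_le
        intro W hW w hw x hx
        refine h.bl_orth (hs U (Finset.mem_insert_self _ _)) (hs W (Finset.mem_insert_of_mem hW)) ?_ x hx w hw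
        rintro rfl
        exact hU hW
      exact h.nd_bl (hs U (Finset.mem_insert_self _ _)) u hu (fun x hx => h3 hu' x hx)
    rw [h2, finrank_bot, add_zero] at h1
    exact h1

theorem finrank_wb (h : Std ρ f Q t H) [Fintype (Bl ρ t H)] :
    finrank F (WB ρ t H) = ∑ U : Bl ρ t H, finrank F (U : Submodule F V) := by
  classical
  have h1 := finrank_sup_bl h (Finset.univ.image (fun U : Bl ρ t H => (U : Submodule F V))) (by
    intro U hU
    obtain ⟨W, -, rfl⟩ := Finset.mem_image.1 hU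
    exact W.2)
  rw [Finset.sum_image (fun a _ b _ hab => Subtype.ext hab)] at h1
  have h2 : (Finset.univ.image (fun U : Bl ρ t H => (U : Submodule F V))).sup id =
      ⨆ U : Bl ρ t H, (U : Submodule F V) := by
    rw [Finset.sup_image, Finset.sup_univ_eq_iSup]
    rfl
  rw [← h1, wb_eq h, h2]

theorem finrank_eq (h : Std ρ f Q t H) [Fintype (Bl ρ t H)] :
    finrank F V = ∑ U : Bl ρ t H, finrank F (U : Submodule F V) + finrank F (Orth f (WB ρ t H)) := by
  rw [← finrank_wb h]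
  have h1 := isCompl_Orth f (WB ρ t H) h.nd_WB
  exact (Submodule.finrank_add_eq_of_isCompl h1).symm

/-- the isometries trivial on `[V, T]` -/
def Y0 (ρ : Representation F K V) (t : ℕ) (H : Subgroup K) : Subgroup K where
  carrier := {g | ∀ w ∈ WB ρ t H, ρ g w = w}
  mul_mem' := fun {a b} ha hb w hw => by rw [mul_ap, hb w hw, ha w hw]
  one_mem' := fun w _ => one_ap ρ w
  inv_mem' := fun {a} ha w hw => by
      have h1 := ha w hw
      nth_rewrite 1 [← h1]
      exact inv_ap ρ a w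

theorem le_bl (h : Std ρ f Q t H) (hU : U ∈ Bl ρ t H) : U ≤ WB ρ t H := by
  rw [wb_eq h]
  exact le_iSup (fun U : Bl ρ t H => (U : Submodule F V)) ⟨U, hU⟩

theorem orth_orth (h : IsoG ρ f Q) {W : Submodule F V} (hW : ND f W) : ∀ u ∈ W, u ∈ Orth f (Orth f W) :=
  fun u hu x hx => h.refl _ _ (hx u hu)

theorem nd_orth (h : IsoG ρ f Q) {W : Submodule F V} (hW : ND f W) : ND f (Orth f W) := by
  intro u hu hx
  apply h.nd
  intro v
  obtain ⟨a, ha, b, hb, rfl⟩ := decomp hW v
  rw [map_add, LinearMap.add_apply, hu a ha, hx b hb, add_zero]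

/-- the part of an element centralising `T` on a block -/
theorem exists_cb (h : Std ρ f Q t H) (hU : U ∈ Bl ρ t H) {g : K} (hg : ∀ z ∈ Zs ρ t H, g * z = z * g) :
    ∃ k ∈ CB ρ f t H U, IsPart ρ f U g k := by
  obtain ⟨k, hk⟩ := h.toIsoG.exists_part (h.nd_bl hU) (bl_inv h hU hg)
  refine ⟨k, ⟨hk.2, fun z hz => ?_⟩, hk⟩
  obtain ⟨z', hz', rfl, -⟩ := hU
  exact (hk.comm h.toIsoG h.htF hz'.2.1 (hg z hz).symm (h.comm_zs hz hz')).symm

theorem exists_y0 (h : Std ρ f Q t H) {g : K} (hg : ∀ z ∈ Zs ρ t H, g * z = z * g) :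
    ∃ k ∈ Y0 ρ t H, ∀ w ∈ Orth f (WB ρ t H), ρ k w = ρ g w := by
  have h1 : (WB ρ t H).map (ρ g) = WB ρ t H := by
    apply map_eq_of_le
    rw [Submodule.map_le_iff_le_comap, wb_eq h]
    apply iSup_le
    intro U u hu
    rw [← wb_eq h]
    exact le_bl h U.2 (bl_inv h U.2 hg u hu)
  have h2 := Orth_map_of_map h.toIsoG h1
  obtain ⟨k, hk⟩ := h.toIsoG.exists_part (nd_orth h.toIsoG h.nd_WB) (x := g) (fun u hu => mem_of_map h2 hu)
  exact ⟨k, fun w hw => hk.2 w (orth_orth h.toIsoG h.nd_WB w hw), hk.1⟩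

/-- **the order of the centraliser of `T`** -/
theorem card_cent_le (h : Std ρ f Q t H) [Fintype (Bl ρ t H)] :
    Nat.card (Subgroup.centralizer (Zs ρ t H)) ≤
      (∏ U : Bl ρ t H, Nat.card (CB ρ f t H (U : Submodule F V))) * Nat.card (Y0 ρ t H) := by
  classical
  have hg : ∀ g : Subgroup.centralizer (Zs ρ t H), ∀ z ∈ Zs ρ t H, (g : K) * z = z * g := fun g z hz =>
    ((Subgroup.mem_centralizer_iff.1 g.2) z hz).symm
  have h1 : ∀ g : Subgroup.centralizer (Zs ρ t H), ∀ U : Bl ρ t H, ∃ k : CB ρ f t H (U : Submodule F V),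
      IsPart ρ f (U : Submodule F V) g k := fun g U => by
    obtain ⟨k, hk, hp⟩ := exists_cb h U.2 (hg g)
    exact ⟨⟨k, hk⟩, hp⟩
  have h2 : ∀ g : Subgroup.centralizer (Zs ρ t H), ∃ k : Y0 ρ t H, ∀ w ∈ Orth f (WB ρ t H),
      ρ (k : K) w = ρ (g : K) w := fun g => by
    obtain ⟨k, hk, hp⟩ := exists_y0 h (hg g)
    exact ⟨⟨k, hk⟩, hp⟩
  choose φ hφ using h1
  choose ψ hψ using h2
  rw [← Nat.card_pi, ← Nat.card_prod]
  refine Nat.card_le_card_of_injective (fun g => (φ g, ψ g)) ?_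
  intro a b hab
  have h3 : φ a = φ b := congrArg Prod.fst hab
  have h4 : ψ a = ψ b := congrArg Prod.snd hab
  apply Subtype.ext
  apply eq_of_parts h.inj h.nd_WB
  · intro u hu
    have h5 : WB ρ t H ≤ LinearMap.ker (ρ (a : K) - ρ (b : K)) := by
      rw [wb_eq h]
      apply iSup_le
      intro U u hu
      rw [LinearMap.mem_ker, LinearMap.sub_apply, ← (hφ a U).1 u hu, ← (hφ b U).1 u hu, h3, sub_self]
    have h6 := h5 hu
    rw [LinearMap.mem_ker, LinearMap.sub_apply] at h6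
    exact sub_eq_zero.1 h6
  · intro w hw
    rw [← hψ a w hw, ← hψ b w hw, h4]

/-- **summary** -/
theorem cent_count (h : Std ρ f Q t H) (hS : SX ρ t H) [Fintype (Bl ρ t H)] : ∃ m : Bl ρ t H → ℕ,
    (∀ U : Bl ρ t H, finrank F (U : Submodule F V) = 2 * m U ∧
      Nat.card (CB ρ f t H (U : Submodule F V)) ≤ Nat.card F ^ m U + 1) ∧
    finrank F V = 2 * ∑ U, m U + finrank F (Orth f (WB ρ t H)) ∧
    Nat.card (Subgroup.centralizer (Zs ρ t H)) ≤ (∏ U, (Nat.card F ^ m U + 1)) * Nat.card (Y0 ρ t H) := by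
  have h1 : ∀ U : Bl ρ t H, ∃ m : ℕ, finrank F (U : Submodule F V) = 2 * m ∧
      Nat.card (CB ρ f t H (U : Submodule F V)) ≤ Nat.card F ^ m + 1 := fun U => block_card h hS U.2
  choose m hm hc using h1
  refine ⟨m, fun U => ⟨hm U, hc U⟩, ?_, ?_⟩
  · rw [finrank_eq h, Finset.mul_sum]
    congr 1
    exact Finset.sum_congr rfl (fun U _ => hm U)
  · refine (card_cent_le h).trans (Nat.mul_le_mul_right _ ?_)
    exact Finset.prod_le_prod' (fun U _ => hc U)

end Cfsg.Agent.H22.DPi
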