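import Cfsg.Agent.H602.DPO.Cnt
import Cfsg.Agent.H22.DPi.TCard

/-!
# S4247, row `POmega`: a class of at least three large blocks (helper22)
-/

set_option autoImplicit false
set_option linter.unusedSectionVars false

namespace Cfsg.Agent.H22.DPi

open Module Cfsg.Agent.H167.OP Cfsg.Agent.H170.HL Cfsg.Agent.H988.CPi Cfsg.Agent.H560.HallKey
  Cfsg.Agent.H553.OddHall Cfsg.Agent.H571.RV Cfsg.Agent.H572.RV Cfsg.Agent.H969.DPi Cfsg.Agent.H602.DPO

variable {F : Type*} [Field F] [Finite F] {V : Type*} [AddCommGroup V] [Module F V] [Finite V]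
  [FiniteDimensional F V] {K : Type*} [Group K] [Finite K]
  {ρ : Representation F K V} {f : V →ₗ[F] V →ₗ[F] F} {Q : V → F} {π : Set ℕ} {H : Subgroup K} {r t : ℕ}
  {U : Submodule F V}

/-- small `r`-elements centralise `T`, `r < t` -/
theorem small_comm (h : Frame ρ f Q π H r t) {x : K} (hx : x ∈ Zs ρ r H) :
    ∀ d ∈ Subgroup.closure (Zs ρ t H), x * d = d * x := by
  have hs := std_of h
  have htf := Fact.mk h.tp
  have hTp := hs.closure_comm.2
  obtain ⟨n, hn⟩ := IsPGroup.iff_card.mp hTp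
  have hr3 := h.r3
  refine comm_of_rk ρ h.inj h.rp (odd_of h.two h.rp h.rπ) hx.2.1 ?_ ?_ ?_ hs.closure_comm.1 ?_ f h.iso h.nd
  · have := hx.2.2
    omega
  · rw [hn]; exact hs.hto.pow
  · rw [hn, Nat.cast_pow]; exact pow_ne_zero _ hs.htF
  · intro d hd
    exact (Subgroup.mem_normalizer_iff.mp (hs.le_norm hx.1) d).mp hd

/-- a Sylow subgroup containing an element -/
theorem exists_sylT (h : IsoG ρ f Q) (h2 : 2 ∉ π) (hp : ∀ l ∈ π, l.Prime → (l : F) ≠ 0) (hH : IsPiHall π H)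
    (hr : r.Prime) (hrπ : r ∈ π) {y : K} (hyH : y ∈ H) (hy : ∃ k : ℕ, y ^ r ^ k = 1) :
    ∃ R : Subgroup K, SylT ρ f Q r H R ∧ y ∈ R := by
  have hrf := Fact.mk hr
  have h1 : IsPGroup r (Subgroup.zpowers (⟨y, hyH⟩ : H)) := by
    obtain ⟨k, hk⟩ := hy
    rintro ⟨x, hx⟩
    obtain ⟨i, rfl⟩ := Subgroup.mem_zpowers_iff.mp hx
    refine ⟨k, Subtype.ext (Subtype.ext ?_)⟩
    show (y ^ i) ^ r ^ k = 1
    rw [← zpow_natCast, ← zpow_mul, mul_comm, zpow_mul, zpow_natCast, hk, one_zpow]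
  obtain ⟨T, hT⟩ := h1.exists_le_sylow
  have h3 : IsPGroup r ((T : Subgroup H).map H.subtype) := T.2.map _
  have h4 : ¬ r ∣ ((T : Subgroup H).map H.subtype).index := by
    have h3 : ((T : Subgroup H).map H.subtype).index = (T : Subgroup H).index * H.index := by
      have := Subgroup.index_map (T : Subgroup H) H.subtype
      rwa [H.ker_subtype, sup_bot_eq, Subgroup.range_subtype] at this
    rw [h3, hr.dvd_mul, not_or]
    exact ⟨T.not_dvd_index, hH.2 r hr hrπ⟩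
  let S : Sylow r K := h3.toSylow h4
  refine ⟨(T : Subgroup H).map H.subtype, ?_, ⟨⟨y, hyH⟩, hT (Subgroup.mem_zpowers _), rfl⟩⟩
  exact
    { toStd := h.std h2 hp hH hr hrπ
      hT := h3
      hTH := Subgroup.map_subtype_le _
      hmax := fun R hR hle => S.is_maximal' hR hle }

/-- **an `r`-element moving a block: `r` divides the order of the centraliser of `T` on the block** -/
theorem r_dvd (h : Frame ρ f Q π H r t) {y : K} (hyH : y ∈ H) (hy : ∃ k : ℕ, y ^ r ^ k = 1)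
    (hU : U ∈ Bl ρ t H) (hyU : U.map (ρ y) ≠ U) : r ∣ Nat.card (CB ρ f t H U) := by
  have hs := std_of h
  have hrf := Fact.mk h.rp
  obtain ⟨R, hR, hyR⟩ := exists_sylT h.toIsoG h.two h.char h.hall h.rp h.rπ hyH hy
  have h1 : ¬ U ≤ Orth f (WB ρ r H) := by
    intro hle
    apply hyU
    apply map_eq_of_le
    rintro _ ⟨u, hu, rfl⟩
    rw [hR.fixed hyR (hle hu)]
    exact hu
  obtain ⟨u, hu, hu'⟩ := SetLike.not_le_iff_exists.1 h1
  have h2 : ¬ ∀ d ∈ Subgroup.closure (Zs ρ r H), ρ d u = u := fun hc => hu' ((mem_Orth_CV h.toIsoG).2 hc)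
  push Not at h2
  obtain ⟨d, hd, hdu⟩ := h2
  have hdT : ∀ z ∈ Zs ρ t H, d * z = z * d := by
    intro z hz
    have h3 : Subgroup.closure (Zs ρ r H) ≤ Subgroup.centralizer ({z} : Set K) := by
      rw [Subgroup.closure_le]
      intro x hx
      rw [SetLike.mem_coe, Subgroup.mem_centralizer_iff]
      intro z' hz'
      rw [Set.mem_singleton_iff] at hz'
      rw [hz']
      exact (small_comm h hx z (Subgroup.subset_closure hz)).symm
    exact ((Subgroup.mem_centralizer_iff.1 (h3 hd)) z rfl).symm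
  obtain ⟨k, hk, hp⟩ := exists_cb hs hU hdT
  have hdr : ∃ m : ℕ, d ^ r ^ m = 1 := by
    obtain ⟨m, hm⟩ := hR.toStd.closure_comm.2 ⟨d, hd⟩
    exact ⟨m, congrArg Subtype.val hm⟩
  have hkr := hp.tel h.toIsoG (hs.nd_bl hU) (bl_inv hs hU hdT) hdr
  have hk1 : k ≠ 1 := by
    rintro rfl
    apply hdu
    rw [← hp.1 u hu, one_ap]
  obtain ⟨m, hm⟩ := hkr
  obtain ⟨j, -, hj⟩ := (Nat.dvd_prime_pow h.rp).1 (orderOf_dvd_of_pow_eq_one hm)
  have hj0 : j ≠ 0 := by
    rintro rfl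
    rw [pow_zero, orderOf_eq_one_iff] at hj
    exact hk1 hj
  have h5 : orderOf (⟨k, hk⟩ : CB ρ f t H U) ∣ Nat.card (CB ρ f t H U) := orderOf_dvd_natCard _
  rw [Subgroup.orderOf_mk, hj] at h5
  exact (dvd_pow_self r hj0).trans h5

theorem t_dvd (h : Frame ρ f Q π H r t) (hU : U ∈ Bl ρ t H) : t ∣ Nat.card (CB ρ f t H U) := by
  have hs := std_of h
  obtain ⟨z, hz, rfl, hz1, -⟩ := hU
  obtain ⟨m, hm⟩ := hz.2.1
  obtain ⟨j, -, hj⟩ := (Nat.dvd_prime_pow h.tp).1 (orderOf_dvd_of_pow_eq_one hm)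
  have hj0 : j ≠ 0 := by
    rintro rfl
    rw [pow_zero, orderOf_eq_one_iff] at hj
    exact hz1 hj
  have hk : z ∈ CB ρ f t H (sp ρ z) :=
    ⟨fun w hw => (mem_Orth_sp h.toIsoG).1 hw, fun z' hz' => hs.comm_zs hz hz'⟩
  have h5 : orderOf (⟨z, hk⟩ : CB ρ f t H (sp ρ z)) ∣ Nat.card (CB ρ f t H (sp ρ z)) := orderOf_dvd_natCard _
  rw [Subgroup.orderOf_mk, hj] at h5
  exact (dvd_pow_self t hj0).trans h5

/-- `-1` on a block -/
theorem two_dvd (h : Frame ρ f Q π H r t) (hQ : ∀ v, Q (-v) = Q v) (h2 : (2 : F) ≠ 0) (hU : U ∈ Bl ρ t H) :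
    2 ∣ Nat.card (CB ρ f t H U) := by
  have hs := std_of h
  have hnd := hs.nd_bl hU
  have hc := isCompl_Orth f U hnd
  let A : Module.End F V := LinearMap.ofIsCompl hc (-U.subtype) (Orth f U).subtype
  have hA1 : ∀ u ∈ U, A u = -u := fun u hu => LinearMap.ofIsCompl_apply_left hc ⟨u, hu⟩
  have hA2 : ∀ w ∈ Orth f U, A w = w := fun u hu => LinearMap.ofIsCompl_apply_right hc ⟨u, hu⟩
  obtain ⟨k, hk⟩ := h.full A (by
    intro u v
    obtain ⟨a, ha, b, hb, rfl⟩ := decomp hnd u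
    obtain ⟨a', ha', b', hb', rfl⟩ := decomp hnd v
    have e1 := hb' a ha
    have e2 := h.toIsoG.refl _ _ (hb a' ha')
    rw [map_add A, map_add A, hA1 a ha, hA1 a' ha', hA2 b hb, hA2 b' hb']
    simp only [map_add, LinearMap.add_apply, map_neg, LinearMap.neg_apply, e1, e2]
    ring) (by
    intro v
    obtain ⟨a, ha, b, hb, rfl⟩ := decomp hnd v
    rw [map_add, hA1 a ha, hA2 b hb, h.addQ _ _ (by rw [map_neg, LinearMap.neg_apply, hb a ha, neg_zero]),
      h.addQ _ _ (hb a ha), hQ])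
  have hkO : ∀ w ∈ Orth f U, ρ k w = w := fun w hw => by rw [hk, hA2 w hw]
  have hkU : ∀ u ∈ U, ρ k u = -u := fun u hu => by rw [hk, hA1 u hu]
  have hkk : k * k = 1 := by
    apply eq_of_parts h.inj hnd
    · intro u hu
      rw [mul_ap, hkU u hu, map_neg, hkU u hu, neg_neg, one_ap]
    · intro w hw
      rw [mul_ap, hkO w hw, hkO w hw, one_ap]
  have hkC : k ∈ CB ρ f t H U := by
    refine ⟨hkO, fun z hz => ?_⟩
    have hzU := bl_inv hs hU (fun z' hz' => hs.comm_zs hz hz')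
    have hzm : U.map (ρ z) = U := map_eq_of_le (by rintro _ ⟨u, hu, rfl⟩; exact hzU u hu)
    have hzO := Orth_map_of_map h.toIsoG hzm
    apply eq_of_parts h.inj hnd
    · intro u hu
      rw [mul_ap, mul_ap, hkU _ (hzU u hu), hkU u hu, map_neg]
    · intro w hw
      rw [mul_ap, mul_ap, hkO w hw, hkO _ (mem_of_map hzO hw)]
  have hk1 : k ≠ 1 := by
    rintro rfl
    apply hs.bl_ne_bot hU
    rw [eq_bot_iff]
    intro u hu
    have h3 := hkU u hu
    rw [one_ap] at h3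
    have h4 : (2 : F) • u = 0 := by
      rw [two_smul]
      nth_rewrite 1 [h3]
      exact neg_add_cancel u
    rw [Submodule.mem_bot]
    exact (smul_eq_zero.1 h4).resolve_left h2
  have h5 : orderOf k = 2 := orderOf_eq_prime (by rw [pow_two, hkk]) hk1
  have h6 : orderOf (⟨k, hkC⟩ : CB ρ f t H U) ∣ Nat.card (CB ρ f t H U) := orderOf_dvd_natCard _
  rwa [Subgroup.orderOf_mk, h5] at h6

/-- **the size of a moved block** -/
theorem big_block (h : Frame ρ f Q π H r t) (hQ : ∀ v, Q (-v) = Q v) {y : K} (hyH : y ∈ H)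
    (hy : ∃ k : ℕ, y ^ r ^ k = 1) (hU : U ∈ Bl ρ t H) (hyU : U.map (ρ y) ≠ U) :
    16 ≤ Nat.card F ^ (finrank F U / 2) ∧ (Odd (Nat.card F) → 29 ≤ Nat.card F ^ (finrank F U / 2)) := by
  have hs := std_of h
  have hS := sx_of_syl hs h.syl
  obtain ⟨m, hm, hc⟩ := block_card hs hS hU
  have hm2 : finrank F U / 2 = m := by omega
  rw [hm2]
  have h1 := r_dvd h hyH hy hU hyU
  have h2 := t_dvd h hU
  have hr3 := h.r3
  have hrt := h.rt
  have hro := odd_of h.two h.rp h.rπ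
  have hto := odd_of h.two h.tp h.tπ
  have hcop : Nat.Coprime r t := (Nat.coprime_primes h.rp h.tp).2 hrt.ne
  have h3 : r * t ∣ Nat.card (CB ρ f t H U) := hcop.mul_dvd_of_dvd_of_dvd h1 h2
  have ht5 : 5 ≤ t := by
    obtain ⟨a, ha⟩ := hro
    obtain ⟨b, hb⟩ := hto
    omega
  have h15 : 15 ≤ r * t := by nlinarith
  have hpos : 0 < Nat.card (CB ρ f t H U) := Nat.card_pos
  constructor
  · have h4 := Nat.le_of_dvd hpos h3
    have h5 : 14 ≤ Nat.card F ^ m := by omega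
    by_contra hcon
    push Not at hcon
    obtain ⟨p, hpc⟩ := CharP.exists F
    have := Fintype.ofFinite F
    obtain ⟨k, hkp, hk⟩ := FiniteField.card F p
    rw [← Nat.card_eq_fintype_card] at hk
    rw [hk, ← pow_mul] at h5 hcon
    generalize (k : ℕ) * m = e at h5 hcon
    have h6 : p ^ e = 14 ∨ p ^ e = 15 := by omega
    have he0 : e ≠ 0 := by rintro rfl; simp at h5
    rcases h6 with h6 | h6
    · have h7 : 7 ∣ p ^ e := by rw [h6]; norm_num
      have h8 : 2 ∣ p ^ e := by rw [h6]; norm_num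
      have h9 := (Nat.prime_dvd_prime_iff_eq (by norm_num) hkp).1 ((by norm_num : Nat.Prime 7).dvd_of_dvd_pow h7)
      have h10 := (Nat.prime_dvd_prime_iff_eq (by norm_num) hkp).1 ((by norm_num : Nat.Prime 2).dvd_of_dvd_pow h8)
      omega
    · have h7 : 3 ∣ p ^ e := by rw [h6]; norm_num
      have h8 : 5 ∣ p ^ e := by rw [h6]; norm_num
      have h9 := (Nat.prime_dvd_prime_iff_eq (by norm_num) hkp).1 ((by norm_num : Nat.Prime 3).dvd_of_dvd_pow h7)
      have h10 := (Nat.prime_dvd_prime_iff_eq (by norm_num) hkp).1 ((by norm_num : Nat.Prime 5).dvd_of_dvd_pow h8)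
      omega
  · intro hodd
    have h20 : (2 : F) ≠ 0 := by
      intro h0
      obtain ⟨p, hpc⟩ := CharP.exists F
      have := Fintype.ofFinite F
      obtain ⟨k, hkp, hk⟩ := FiniteField.card F p
      rw [← Nat.card_eq_fintype_card] at hk
      have h7 : p ∣ 2 := (CharP.cast_eq_zero_iff F p 2).1 (by exact_mod_cast h0)
      have h8 : p = 2 := (Nat.prime_dvd_prime_iff_eq hkp Nat.prime_two).1 h7
      rw [hk, h8] at hodd
      exact (Nat.not_even_iff_odd.2 hodd) ((Nat.even_pow.2 ⟨even_two, k.ne_zero⟩))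
    have h4 := two_dvd h hQ h20 hU
    have h5 : Nat.Coprime 2 (r * t) := Nat.coprime_two_left.2 (hro.mul hto)
    have h6 := Nat.le_of_dvd hpos (h5.mul_dvd_of_dvd_of_dvd h4 h3)
    omega

/-- **a class of three large blocks** -/
theorem exists_class (h : Frame ρ f Q π H r t) (hQ : ∀ v, Q (-v) = Q v) :
    ∃ J ⊆ bls ρ t H, 3 ≤ J.card ∧ ∀ U ∈ J, 16 ≤ Nat.card F ^ (finrank F U / 2) ∧
      (Odd (Nat.card F) → 29 ≤ Nat.card F ^ (finrank F U / 2)) := by
  classical
  obtain ⟨y, hyH, hy, hyF⟩ := h.mv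
  have h1 : ∃ U ∈ Bl ρ t H, U.map (ρ y) ≠ U := by
    by_contra hcon
    push Not at hcon
    exact hyF hcon
  obtain ⟨U, hU, hyU⟩ := h1
  have hmm : ∀ W : Submodule F V, (W.map (ρ y)).map (ρ y) = W.map (ρ (y * y)) := fun W => by
    rw [map_map]
  have hinj : ∀ W W' : Submodule F V, W.map (ρ y) = W'.map (ρ y) → W = W' := by
    intro W W' hW
    have h2 := congrArg (Submodule.map (ρ y⁻¹)) hW
    rwa [map_map, map_map, inv_mul_cancel, map_one', map_one'] at h2
  have hU1 : U.map (ρ y) ∈ Bl ρ t H := Bl_map hyH hU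
  have hU2 : (U.map (ρ y)).map (ρ y) ∈ Bl ρ t H := Bl_map hyH hU1
  have hne1 : (U.map (ρ y)).map (ρ y) ≠ U.map (ρ y) := fun h0 => hyU (hinj _ _ h0)
  have hne2 : ((U.map (ρ y)).map (ρ y)).map (ρ y) ≠ (U.map (ρ y)).map (ρ y) := fun h0 => hne1 (hinj _ _ h0)
  have hne3 : (U.map (ρ y)).map (ρ y) ≠ U := by
    intro h0
    rw [hmm] at h0
    -- `y ^ 2` generates `⟨y⟩`
    obtain ⟨k, hk⟩ := hy
    have hodd : Odd (r ^ k) := (odd_of h.two h.rp h.rπ).pow
    obtain ⟨a, ha⟩ := hodd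
    have h3 : ∀ n : ℕ, U.map (ρ ((y * y) ^ n)) = U := by
      intro n
      induction n with
      | zero => rw [pow_zero, map_one']
      | succ n ih => rw [pow_succ', ← map_map, ih, h0]
    have h4 := h3 (a + 1)
    have h5 : (y * y) ^ (a + 1) = y := by
      calc (y * y) ^ (a + 1) = y ^ (2 * (a + 1)) := by rw [← pow_two, ← pow_mul]
        _ = y ^ (2 * a + 1) * y := by rw [show 2 * (a + 1) = 2 * a + 1 + 1 by ring, pow_succ]
        _ = y := by rw [← ha, hk, one_mul]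
    rw [h5] at h4
    exact hyU h4
  refine ⟨{U, U.map (ρ y), (U.map (ρ y)).map (ρ y)}, ?_, ?_, ?_⟩
  · intro W hW
    rw [mem_bls]
    simp only [Finset.mem_insert, Finset.mem_singleton] at hW
    rcases hW with rfl | rfl | rfl
    · exact hU
    · exact hU1
    · exact hU2
  · rw [Finset.card_eq_three.2 ⟨U, U.map (ρ y), (U.map (ρ y)).map (ρ y), hyU.symm, hne3.symm, hne1.symm, rfl⟩]
  · intro W hW
    simp only [Finset.mem_insert, Finset.mem_singleton] at hW
    rcases hW with rfl | rfl | rfl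
    · exact big_block h hQ hyH hy hU hyU
    · exact big_block h hQ hyH hy hU1 hne1
    · exact big_block h hQ hyH hy hU2 hne2

end Cfsg.Agent.H22.DPi
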