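import Cfsg.Agent.H602.DPO.Cnt
import Cfsg.Agent.H22.DPi.Class
import Cfsg.Agent.H900.Four.Sub
import Cfsg.Agent.ClassicalGeometry.WittQuad

/-!
# S4247, row `POmega`: `dim V₀ ≥ 3` implies `dim V₁ ≥ 12` (helper22)
-/

set_option autoImplicit false
set_option linter.unusedSectionVars false

namespace Cfsg.Agent.H22.DPi

section planes

open QuadraticMap Module Cfsg.Agent.LieClassical.OrthCore Cfsg.Agent.H900.Four

variable {F V : Type*} [Field F] [AddCommGroup V] [Module F V] [FiniteDimensional F V] {Q : QuadraticForm F V}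

theorem exists_ns {W : Submodule F V} (hW : Nd Q W) (h0 : W ≠ ⊥) : ∃ w ∈ W, Q w ≠ 0 := by
  by_contra hcon
  push Not at hcon
  apply h0
  rw [eq_bot_iff]
  intro x hx
  rw [Submodule.mem_bot]
  refine hW x hx fun y hy => ?_
  rw [polar, hcon _ (W.add_mem hx hy), hcon x hx, hcon y hy]
  ring

theorem ne_bot_of_finrank {W : Submodule F V} (h : 1 ≤ finrank F W) : W ≠ ⊥ := by
  rintro rfl
  rw [finrank_bot] at h
  omega

/-- cutting by a linear form -/
theorem finrank_cut (W : Submodule F V) (g : V →ₗ[F] F) :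
    finrank F W ≤ finrank F (W ⊓ LinearMap.ker g : Submodule F V) + 1 := by
  have h1 := Submodule.finrank_sup_add_finrank_inf_eq W (LinearMap.ker g)
  have h2 := LinearMap.finrank_range_add_finrank_ker g
  have h3' : finrank F (LinearMap.range g) ≤ 1 := by
    have := Submodule.finrank_le (LinearMap.range g)
    rwa [finrank_self] at this
  have h4 : finrank F (W ⊔ LinearMap.ker g : Submodule F V) ≤ finrank F V := Submodule.finrank_le _
  omega

theorem nd_cut {W : Submodule F V} (hW : Nd Q W) {a : V} (ha : a ∈ W) (haa : polar Q a a ≠ 0) :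
    Nd Q (W ⊓ LinearMap.ker (polarBilin Q a)) := by
  intro x hx hxy
  have hx2 : polar Q a x = 0 := hx.2
  refine hW x hx.1 fun y hy => ?_
  have h1 : y - (polar Q a y * (polar Q a a)⁻¹) • a ∈ W ⊓ LinearMap.ker (polarBilin Q a) := by
    refine ⟨W.sub_mem hy (W.smul_mem _ ha), ?_⟩
    show polar Q a (y - (polar Q a y * (polar Q a a)⁻¹) • a) = 0
    rw [polar_sub_right, polar_smul_right, smul_eq_mul, mul_assoc, inv_mul_cancel₀ haa, mul_one, sub_self]
  have h2 := hxy _ h1
  rw [polar_sub_right, polar_smul_right, polar_comm Q x a, hx2, smul_zero, sub_zero] at h2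
  exact h2

theorem nd_cut2 {W : Submodule F V} (hW : Nd Q W) {a b : V} (ha : a ∈ W) (hb : b ∈ W) (haa : polar Q a a = 0)
    (hbb : polar Q b b = 0) (hab : polar Q a b = 1) :
    Nd Q (W ⊓ LinearMap.ker (polarBilin Q a) ⊓ LinearMap.ker (polarBilin Q b)) := by
  intro x hx hxy
  have hxa : polar Q a x = 0 := hx.1.2
  have hxb : polar Q b x = 0 := hx.2
  refine hW x hx.1.1 fun y hy => ?_
  have h1 : y - polar Q a y • b - polar Q b y • a ∈
      W ⊓ LinearMap.ker (polarBilin Q a) ⊓ LinearMap.ker (polarBilin Q b) := by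
    refine ⟨⟨W.sub_mem (W.sub_mem hy (W.smul_mem _ hb)) (W.smul_mem _ ha), ?_⟩, ?_⟩
    · show polar Q a (y - polar Q a y • b - polar Q b y • a) = 0
      rw [polar_sub_right, polar_sub_right, polar_smul_right, polar_smul_right, hab, haa]
      simp
    · show polar Q b (y - polar Q a y • b - polar Q b y • a) = 0
      rw [polar_sub_right, polar_sub_right, polar_smul_right, polar_smul_right, polar_comm Q b a, hab, hbb]
      simp
  have h2 := hxy _ h1
  rw [polar_sub_right, polar_sub_right, polar_smul_right, polar_smul_right, polar_comm Q x a, hxa,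
    polar_comm Q x b, hxb, smul_zero, smul_zero, sub_zero, sub_zero] at h2
  exact h2

/-- **the Gram matrix of a plane in a space of dimension `≥ 3`** -/
theorem exists_gram [Finite F] {U W : Submodule F V} (hU : Nd Q U) (h2 : 2 ≤ finrank F U) (hW : Nd Q W)
    (h3 : 3 ≤ finrank F W) : ∃ e₁ ∈ U, ∃ e₂ ∈ U, ∃ a ∈ W, ∃ b ∈ W, Q a = Q e₁ ∧ Q b = Q e₂ ∧
      polar Q a b = polar Q e₁ e₂ ∧ polar Q e₁ e₁ * polar Q e₂ e₂ - polar Q e₁ e₂ * polar Q e₁ e₂ ≠ 0 := by
  obtain ⟨e₁, he₁, hQ₁⟩ := exists_value_nd hU h2 1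
  by_cases h20 : (2 : F) = 0
  · have hself : ∀ v, polar Q v v = 0 := fun v => by rw [polar_self', h20, zero_mul]
    have hex : ∀ {X : Submodule F V}, Nd Q X → ∀ x ∈ X, Q x = 1 → ∃ y ∈ X, polar Q x y = 1 := by
      intro X hX x hx hQx
      have hx0 : x ≠ 0 := by
        rintro rfl
        rw [QuadraticMap.map_zero] at hQx
        exact zero_ne_one hQx
      obtain ⟨y, hy, hxy⟩ : ∃ y ∈ X, polar Q x y ≠ 0 := by
        by_contra hcon
        push Not at hcon
        exact hx0 (hX x hx hcon)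
      exact ⟨(polar Q x y)⁻¹ • y, X.smul_mem _ hy, by
        rw [polar_smul_right, smul_eq_mul, inv_mul_cancel₀ hxy]⟩
    obtain ⟨e₂, he₂, h12⟩ := hex hU e₁ he₁ hQ₁
    obtain ⟨a, ha, hQa⟩ := exists_value_nd hW (by omega) 1
    obtain ⟨w₀, hw₀, haw⟩ := hex hW a ha hQa
    have hX := nd_cut2 hW ha hw₀ (hself a) (hself w₀) haw
    have hd1 := finrank_cut W (polarBilin Q a)
    have hd2 := finrank_cut (W ⊓ LinearMap.ker (polarBilin Q a)) (polarBilin Q w₀)
    obtain ⟨w, ⟨⟨hwW, hwa⟩, hwb⟩, hQw⟩ := exists_ns hX (ne_bot_of_finrank (by omega))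
    have hwa' : polar Q a w = 0 := hwa
    have hwb' : polar Q w₀ w = 0 := hwb
    have hch : CharP F 2 := CharTwo.of_one_ne_zero_of_two_eq_zero one_ne_zero h20
    obtain ⟨l, hl⟩ : IsSquare ((Q e₂ - Q w₀) * (Q w)⁻¹) := by
      have := Fintype.ofFinite F
      exact FiniteField.isSquare_of_char_two (ringChar.eq_iff.2 hch) _
    refine ⟨e₁, he₁, e₂, he₂, a, ha, w₀ + l • w, W.add_mem hw₀ (W.smul_mem _ hwW), by rw [hQa, hQ₁], ?_, ?_, ?_⟩
    · rw [Q_add, QuadraticMap.map_smul, polar_smul_right, hwb', smul_zero, add_zero, smul_eq_mul, ← hl, mul_assoc,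
        inv_mul_cancel₀ hQw, mul_one]
      ring
    · rw [polar_add_right, polar_smul_right, haw, hwa', smul_zero, add_zero, h12]
    · rw [hself, h12]
      simp
  · have h11 : polar Q e₁ e₁ ≠ 0 := by
      rw [polar_self', hQ₁, mul_one]
      exact h20
    have hd1 := finrank_cut U (polarBilin Q e₁)
    obtain ⟨e₂, ⟨he₂, h12⟩, hQ₂⟩ := exists_ns (nd_cut hU he₁ h11) (ne_bot_of_finrank (by omega))
    have h12' : polar Q e₁ e₂ = 0 := h12
    obtain ⟨a, ha, b, hb, hQa, hQb, hab⟩ := exists_ab h20 hW h3 (α := Q e₁) (by rw [hQ₁]; exact one_ne_zero) (Q e₂)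
    refine ⟨e₁, he₁, e₂, he₂, a, ha, b, hb, hQa, hQb, by rw [hab, h12'], ?_⟩
    rw [h12', mul_zero, sub_zero]
    refine mul_ne_zero h11 ?_
    rw [polar_self']
    exact mul_ne_zero h20 hQ₂

theorem indep_of_gram {x y : V} (h : polar Q x x * polar Q y y - polar Q x y * polar Q x y ≠ 0) :
    LinearIndependent F ![x, y] := by
  rw [LinearIndependent.pair_iff]
  intro s t hst
  have h1 : s * polar Q x x + t * polar Q x y = 0 := by
    have h2 : polar Q x (s • x + t • y) = 0 := by rw [hst]; exact polar_zero_right Q x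
    rwa [polar_add_right, polar_smul_right, polar_smul_right, smul_eq_mul, smul_eq_mul] at h2
  have h3 : s * polar Q x y + t * polar Q y y = 0 := by
    have h2 : polar Q y (s • x + t • y) = 0 := by rw [hst]; exact polar_zero_right Q y
    rwa [polar_add_right, polar_smul_right, polar_smul_right, smul_eq_mul, smul_eq_mul, polar_comm Q y x] at h2
  constructor
  · refine (mul_eq_zero.1 (?_ : s * (polar Q x x * polar Q y y - polar Q x y * polar Q x y) = 0)).resolve_right h
    linear_combination polar Q y y * h1 - polar Q x y * h3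
  · refine (mul_eq_zero.1 (?_ : t * (polar Q x x * polar Q y y - polar Q x y * polar Q x y) = 0)).resolve_right h
    linear_combination polar Q x x * h3 - polar Q x y * h1

/-- **a nondegenerate plane is moved into a nondegenerate space of dimension `≥ 3`** -/
theorem exists_move [Finite F] (hQ : Nondeg Q) {U W : Submodule F V} (hU : Nd Q U) (h2 : finrank F U = 2)
    (hW : Nd Q W) (h3 : 3 ≤ finrank F W) :
    ∃ g : V ≃ₗ[F] V, (∀ v, Q (g v) = Q v) ∧ ∀ u ∈ U, g u ∈ W := by
  obtain ⟨e₁, he₁, e₂, he₂, a, ha, b, hb, hQ1, hQ2, hp, hne⟩ := exists_gram hU h2.ge hW h3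
  have hself : ∀ {x y : V}, Q x = Q y → polar Q x x = polar Q y y := fun {x y} h => by
    rw [polar_self', polar_self', h]
  have hi1 := indep_of_gram hne
  have hi2 : LinearIndependent F ![a, b] := indep_of_gram (by rw [hself hQ1, hself hQ2, hp]; exact hne)
  have hn : (polarBilin Q).Nondegenerate :=
    ⟨fun x hx => hQ x hx, fun x hx => hQ x (fun y => by rw [polar_comm]; exact hx y)⟩
  obtain ⟨g, hg, hge⟩ := ClassicalGeometry.WittQuad.extend_family Q hn 2 ![e₁, e₂] ![a, b] hi1 hi2 (by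
    intro i
    fin_cases i
    · exact hQ1.symm
    · exact hQ2.symm) (by
    intro i j
    fin_cases i <;> fin_cases j
    · exact (hself hQ1).symm
    · exact hp.symm
    · show polar Q e₂ e₁ = polar Q b a
      rw [polar_comm Q e₂, polar_comm Q b, hp]
    · exact (hself hQ2).symm)
  refine ⟨g, hg, ?_⟩
  have hspan : Submodule.span F (Set.range ![e₁, e₂]) = U := by
    apply Submodule.eq_of_le_of_finrank_eq
    · rw [Submodule.span_le]
      rintro _ ⟨i, rfl⟩
      fin_cases i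
      · exact he₁
      · exact he₂
    · rw [finrank_span_eq_card hi1, h2]
      rfl
  intro u hu
  rw [← hspan] at hu
  have h5 : Submodule.span F (Set.range ![e₁, e₂]) ≤ W.comap (g : V →ₗ[F] V) := by
    rw [Submodule.span_le]
    rintro _ ⟨i, rfl⟩
    fin_cases i
    · show g e₁ ∈ W
      have h6 : g e₁ = a := hge 0
      rw [h6]; exact ha
    · show g e₂ ∈ W
      have h6 : g e₂ = b := hge 1
      rw [h6]; exact hb
  exact h5 hu

end planes

open Module Cfsg.Agent.H167.OP Cfsg.Agent.H170.HL Cfsg.Agent.H988.CPi Cfsg.Agent.H560.HallKey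
  Cfsg.Agent.H553.OddHall Cfsg.Agent.H571.RV Cfsg.Agent.H572.RV Cfsg.Agent.H969.DPi Cfsg.Agent.H602.DPO

variable {F : Type*} [Field F] [Finite F] {V : Type*} [AddCommGroup V] [Module F V] [Finite V]
  [FiniteDimensional F V] {K : Type*} [Group K] [Finite K]
  {ρ : Representation F K V} {Q : QuadraticForm F V} {π : Set ℕ} {H : Subgroup K} {r t : ℕ}

/-- a block is not moved into `C_V(T)` -/
theorem not_moved {f : V →ₗ[F] V →ₗ[F] F} {q : V → F} (h : Frame ρ f q π H r t) {U : Submodule F V}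
    (hU : U ∈ Bl ρ t H) (g : K) (hg : ∀ u ∈ U, ρ g u ∈ Orth f (WB ρ t H)) : False := by
  have hs := std_of h
  have hU' := hU
  obtain ⟨z, hz, rfl, hz1, -⟩ := hU
  have hspy : sp ρ (g * z * g⁻¹) ≤ Orth f (WB ρ t H) := by
    rw [sp_conj]
    rintro _ ⟨u, hu, rfl⟩
    exact hg u hu
  have hyW : ∀ w ∈ WB ρ t H, ρ (g * z * g⁻¹) w = w := by
    intro w hw
    rw [← mem_Orth_sp h.toIsoG]
    intro x hx
    exact h.toIsoG.refl _ _ (hspy hx w hw)
  have hyS : ∀ z' ∈ Zs ρ t H, (g * z * g⁻¹) * z' = z' * (g * z * g⁻¹) := by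
    intro z' hz'
    have hsz : sp ρ z' ≤ WB ρ t H := range_le_CV ρ (Subgroup.subset_closure hz')
    have hz'O : ∀ w ∈ Orth f (WB ρ t H), ρ z' w = w := by
      intro w hw
      rw [← mem_Orth_sp h.toIsoG]
      exact fun x hx => hw x (hsz hx)
    have hym : (WB ρ t H).map (ρ (g * z * g⁻¹)) = WB ρ t H := by
      apply map_eq_of_le
      rintro _ ⟨w, hw, rfl⟩
      rw [hyW w hw]
      exact hw
    have hyO := Orth_map_of_map h.toIsoG hym
    have hz'm := hs.WB_map hz'.1
    apply eq_of_parts h.inj hs.nd_WB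
    · intro w hw
      rw [mul_ap (ρ := ρ) (g * z * g⁻¹) z' w, mul_ap (ρ := ρ) z' (g * z * g⁻¹) w, hyW _ (mem_of_map hz'm hw), hyW w hw]
    · intro w hw
      rw [mul_ap (ρ := ρ) (g * z * g⁻¹) z' w, mul_ap (ρ := ρ) z' (g * z * g⁻¹) w, hz'O w hw,
        hz'O _ (mem_of_map hyO hw)]
  have hyt : ∃ k : ℕ, (g * z * g⁻¹) ^ t ^ k = 1 := (hz.2.conj g).1
  have hyH : g * z * g⁻¹ ∈ H := sx_of_syl hs h.syl _ hyt hyS
  have hyZ : g * z * g⁻¹ ∈ Zs ρ t H := ⟨hyH, hz.2.conj g⟩
  have h1 : sp ρ (g * z * g⁻¹) ≤ WB ρ t H := range_le_CV ρ (Subgroup.subset_closure hyZ)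
  have h2 : sp ρ (g * z * g⁻¹) = ⊥ := by
    rw [eq_bot_iff]
    intro x hx
    rw [Submodule.mem_bot]
    exact hs.nd_WB x (h1 hx) (fun w hw => hspy hx w hw)
  rw [sp_eq_bot h.inj, conj_eq_one_iff] at h2
  exact hz1 h2

theorem dim_block (h : Frame ρ (QuadraticMap.polarBilin Q) (⇑Q) π H r t)
    (h3 : 3 ≤ finrank F (Orth (QuadraticMap.polarBilin Q) (WB ρ t H))) {U : Submodule F V} (hU : U ∈ Bl ρ t H) :
    4 ≤ finrank F U := by
  have hs := std_of h
  obtain ⟨m, hm, -⟩ := block_card hs (sx_of_syl hs h.syl) hU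
  have hm0 : m ≠ 0 := by
    rintro rfl
    exact hs.bl_ne_bot hU (Submodule.finrank_eq_zero.1 (by rw [hm]))
  have hnd : ∀ {X : Submodule F V}, ND (QuadraticMap.polarBilin Q) X → Cfsg.Agent.H900.Four.Nd Q X := by
    intro X hX x hx hxy
    exact hX x hx (fun y hy => by
      show QuadraticMap.polar Q y x = 0
      rw [QuadraticMap.polar_comm]
      exact hxy y hy)
  have hm1 : m ≠ 1 := by
    rintro rfl
    have hQ : Cfsg.Agent.LieClassical.OrthCore.Nondeg Q := by
      intro x hx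
      apply h.nd
      intro y
      show QuadraticMap.polar Q y x = 0
      rw [QuadraticMap.polar_comm]
      exact hx y
    obtain ⟨g, hg, hgU⟩ := exists_move hQ (hnd (hs.nd_bl hU)) (by omega) (hnd (nd_orth h.toIsoG hs.nd_WB)) h3
    obtain ⟨k, hk⟩ := h.full (g : V →ₗ[F] V) (fun u v => by
      show QuadraticMap.polar Q (g u) (g v) = QuadraticMap.polar Q u v
      rw [QuadraticMap.polar, ← map_add, hg, hg, hg, QuadraticMap.polar]) hg
    refine not_moved h hU k (fun u hu => ?_)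
    rw [hk]
    exact hgU u hu
  omega

/-- **`dim V₁ ≥ 12`** -/
theorem dim_ge (h : Frame ρ (QuadraticMap.polarBilin Q) (⇑Q) π H r t)
    (h3 : 3 ≤ finrank F (Orth (QuadraticMap.polarBilin Q) (WB ρ t H))) : 12 ≤ finrank F (WB ρ t H) := by
  classical
  have hs := std_of h
  obtain ⟨J, hJ, hJ3, -⟩ := exists_class h (fun v => QuadraticMap.map_neg Q v)
  have h1 := finrank_sup_bl hs J (fun U hU => mem_bls.1 (hJ hU))
  have h2 : J.sup id ≤ WB ρ t H := by
    apply Finset.sup_le
    intro U hU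
    exact le_bl hs (mem_bls.1 (hJ hU))
  have h4 := Submodule.finrank_mono h2
  have h5 : ∑ _U ∈ J, 4 ≤ ∑ U ∈ J, finrank F U :=
    Finset.sum_le_sum (fun U hU => dim_block h h3 (mem_bls.1 (hJ hU)))
  rw [Finset.sum_const, smul_eq_mul] at h5
  omega

end Cfsg.Agent.H22.DPi
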