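import Mathlib

/-!
# S4247, orthogonal groups, part (b): the functor `Hp` (helper22)

`Yp p T` : the subgroup generated by the `p`-elements of `C(T)`; `Hp p T = [C(Yp), C(Yp)]`.
`Hp_map` : `Hp` and a surjective homomorphism whose kernel is central and of order prime to `p` and to `|T|`.
-/

set_option autoImplicit false

namespace Cfsg.Agent.H22.DPi

open Subgroup

/-- the subgroup generated by the `p`-elements of `C(T)` -/
def Yp (p : ℕ) {G : Type*} [Group G] (T : Subgroup G) : Subgroup G :=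
  closure {x | (∀ t ∈ T, x * t = t * x) ∧ ∃ k : ℕ, x ^ p ^ k = 1}

/-- `[C(Yp), C(Yp)]` -/
def Hp (p : ℕ) {G : Type*} [Group G] (T : Subgroup G) : Subgroup G :=
  ⁅centralizer (Yp p T : Set G), centralizer (Yp p T : Set G)⁆

variable {p : ℕ}

theorem Yp_equiv {G G' : Type*} [Group G] [Group G'] (e : G ≃* G') (T : Subgroup G) :
    (Yp p T).map e.toMonoidHom = Yp p (T.map e.toMonoidHom) := by
  unfold Yp
  rw [MonoidHom.map_closure]
  congr 1
  ext y
  constructor
  · rintro ⟨x, ⟨h1, k, h2⟩, rfl⟩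
    refine ⟨?_, k, ?_⟩
    · rintro _ ⟨t, ht, rfl⟩
      show e x * e t = e t * e x
      rw [← map_mul, h1 t ht, map_mul]
    · show (e x) ^ p ^ k = 1
      rw [← map_pow, h2, map_one]
  · rintro ⟨h1, k, h2⟩
    refine ⟨e.symm y, ⟨?_, k, ?_⟩, e.apply_symm_apply y⟩
    · intro t ht
      apply e.injective
      rw [map_mul, map_mul, e.apply_symm_apply]
      exact h1 _ ⟨t, ht, rfl⟩
    · rw [← map_pow, h2, map_one]

theorem centralizer_equiv {G G' : Type*} [Group G] [Group G'] (e : G ≃* G') (T : Subgroup G) :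
    (centralizer (T : Set G)).map e.toMonoidHom = centralizer ((T.map e.toMonoidHom : Subgroup G') : Set G') := by
  ext y
  rw [Subgroup.mem_map]
  constructor
  · rintro ⟨x, hx, rfl⟩
    rw [mem_centralizer_iff] at hx ⊢
    rintro _ ⟨t, ht, rfl⟩
    show e t * e x = e x * e t
    rw [← map_mul, hx t ht, map_mul]
  · intro hy
    rw [mem_centralizer_iff] at hy
    refine ⟨e.symm y, ?_, e.apply_symm_apply y⟩
    rw [mem_centralizer_iff]
    intro t ht
    apply e.injective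
    rw [map_mul, map_mul, e.apply_symm_apply]
    exact hy _ ⟨t, ht, rfl⟩

theorem Hp_equiv {G G' : Type*} [Group G] [Group G'] (e : G ≃* G') (T : Subgroup G) :
    (Hp p T).map e.toMonoidHom = Hp p (T.map e.toMonoidHom) := by
  unfold Hp
  rw [Subgroup.map_commutator, centralizer_equiv, Yp_equiv]

theorem Hp_aut {G : Type*} [Group G] {T : Subgroup G} {α : MulAut G} (h : T.map α.toMonoidHom = T) :
    (Hp p T).map α.toMonoidHom = Hp p T := by
  rw [Hp_equiv, h]

/-! ### lifting -/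

section lift

variable {E S : Type*} [Group E] [Group S] {ψ : E →* S}

/-- an element commutes with `t` modulo the kernel -/
theorem comm_of_ker (hc : ψ.ker ≤ center E) {g t : E} (h : ψ g * ψ t = ψ t * ψ g) {m n : ℕ} (ht : t ^ n = 1)
    (hk : ∀ z ∈ ψ.ker, z ^ m = 1) (hmn : m.Coprime n) : g * t = t * g := by
  set z := g * t * g⁻¹ * t⁻¹ with hz
  have hzk : z ∈ ψ.ker := by
    rw [MonoidHom.mem_ker, hz]
    simp only [map_mul, map_inv]
    rw [h]
    group
  have hzc := mem_center_iff.1 (hc hzk)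
  have h1 : g * t * g⁻¹ = z * t := by rw [hz]; group
  have h2 : (z * t) ^ n = 1 := by
    rw [← h1, conj_pow, ht]
    group
  have h3 : Commute z t := (hzc t).symm
  rw [h3.mul_pow, ht, mul_one] at h2
  have h4 : z = 1 := by
    have h5 : orderOf z ∣ m := orderOf_dvd_of_pow_eq_one (hk z hzk)
    have h6 : orderOf z ∣ n := orderOf_dvd_of_pow_eq_one h2
    have h7 : orderOf z ∣ 1 := by
      rw [← hmn.gcd_eq_one]
      exact Nat.dvd_gcd h5 h6
    exact orderOf_eq_one_iff.1 (Nat.dvd_one.1 h7)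
  rw [h4, one_mul] at h1
  exact mul_inv_eq_iff_eq_mul.1 h1

/-- lifting of elements of order prime to the kernel -/
theorem exists_lift (hψ : Function.Surjective ψ) (hc : ψ.ker ≤ center E) {m n : ℕ} (hk : ∀ z ∈ ψ.ker, z ^ m = 1)
    (hmn : m.Coprime n) {x : S} (hx : x ^ n = 1) : ∃ y : E, ψ y = x ∧ y ^ n = 1 := by
  obtain ⟨y, rfl⟩ := hψ x
  have hyk : y ^ n ∈ ψ.ker := by rw [MonoidHom.mem_ker, map_pow, hx]
  obtain ⟨z, hz⟩ : ∃ z, z = y ^ n := ⟨_, rfl⟩
  rw [← hz] at hyk
  have hzc := mem_center_iff.1 (hc hyk)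
  have hb := Nat.gcd_eq_gcd_ab m n
  rw [hmn.gcd_eq_one] at hb
  set u := Nat.gcdA m n
  set v := Nat.gcdB m n
  refine ⟨y * z ^ (-v), ?_, ?_⟩
  · have h1 : z ^ (-v) ∈ ψ.ker := zpow_mem hyk _
    rw [map_mul, MonoidHom.mem_ker.1 h1, mul_one]
  · have h3 : Commute y (z ^ (-v)) := (show Commute y z from hzc y).zpow_right _
    rw [h3.mul_pow, ← hz, ← zpow_natCast, ← zpow_mul]
    nth_rewrite 1 [← zpow_one z]
    rw [← zpow_add]
    have h4 : (1 : ℤ) + -v * (n : ℤ) = (m : ℤ) * u := by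
      have : (1 : ℤ) = m * u + n * v := by exact_mod_cast hb
      linear_combination this
    rw [h4, zpow_mul, zpow_natCast, hk z hyk, one_zpow]

variable (hψ : Function.Surjective ψ) (hc : ψ.ker ≤ center E) {m : ℕ} (hk : ∀ z ∈ ψ.ker, z ^ m = 1) (hmp : m.Coprime p)
  {T : Subgroup E} (hT : ∀ t ∈ T, ∃ n : ℕ, t ^ n = 1 ∧ m.Coprime n)

include hψ hc hk hmp hT in
theorem Yp_map : Yp p (T.map ψ) = (Yp p T).map ψ := by
  unfold Yp
  rw [MonoidHom.map_closure]
  congr 1
  ext y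
  constructor
  · rintro ⟨h1, k, h2⟩
    obtain ⟨x, hx, hxk⟩ := exists_lift hψ hc hk (hmp.pow_right k) h2
    refine ⟨x, ⟨?_, k, hxk⟩, hx⟩
    intro t ht
    obtain ⟨n, hn, hmn⟩ := hT t ht
    apply comm_of_ker hc _ hn hk hmn
    rw [hx]
    exact h1 _ ⟨t, ht, rfl⟩
  · rintro ⟨x, ⟨h1, k, h2⟩, rfl⟩
    refine ⟨?_, k, ?_⟩
    · rintro _ ⟨t, ht, rfl⟩
      rw [← map_mul, h1 t ht, map_mul]
    · rw [← map_pow, h2, map_one]

include hψ hc hk hmp hT in
theorem centralizer_Yp_map : centralizer (Yp p (T.map ψ) : Set S) = (centralizer (Yp p T : Set E)).map ψ := by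
  rw [Yp_map hψ hc hk hmp hT]
  ext y
  rw [mem_centralizer_iff, Subgroup.mem_map]
  constructor
  · intro hy
    obtain ⟨x, rfl⟩ := hψ y
    refine ⟨x, ?_, rfl⟩
    show x ∈ centralizer ((closure _ : Subgroup E) : Set E)
    rw [centralizer_closure, mem_centralizer_iff]
    rintro g ⟨h1, k, h2⟩
    refine (comm_of_ker hc ?_ h2 hk (hmp.pow_right k)).symm
    exact (hy _ ⟨g, subset_closure ⟨h1, k, h2⟩, rfl⟩).symm
  · rintro ⟨x, hx, rfl⟩ _ ⟨g, hg, rfl⟩
    rw [mem_centralizer_iff] at hx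
    rw [← map_mul, hx g hg, map_mul]

include hψ hc hk hmp hT in
/-- **`Hp` commutes with a central extension of order prime to `p` and to `T`.** -/
theorem Hp_map : Hp p (T.map ψ) = (Hp p T).map ψ := by
  unfold Hp
  rw [Subgroup.map_commutator, centralizer_Yp_map hψ hc hk hmp hT]

end lift

end Cfsg.Agent.H22.DPi
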