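import Mathlib
import Cfsg.Agent.GenOrth.Normal
import Cfsg.Agent.H22.DPi.Lift
import Cfsg.Agent.H22.DPi.Scal

/-!
# `Hp p T` in `E Q` (helper22)

`V = V₀ ⊥ V₁`, `T ≤ E Q` fixes `V₀` pointwise, every `p`-element of `C(T)` fixes `V₁` pointwise, `dim V₀ ≥ 3`,
`dim V₁ ≥ 5`. Then `Hp p T` is the copy of `E (Q|V₁)`.
-/

set_option autoImplicit false
set_option linter.unusedSectionVars false

namespace Cfsg.Agent.H22.DPi

open QuadraticMap
open Cfsg.Agent.LieClassical.OrthCore Cfsg.Agent.LieClassical.OrthTrans Cfsg.Agent.LieClassical.OrthSimple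
open Cfsg.Agent.GenOrth

variable {F V : Type*} [Field F] [AddCommGroup V] [Module F V] {Q : QuadraticForm F V}

section siegel

theorem siegel_pow {u w : V} (hu : Q u = 0) (hw : polar Q u w = 0) : ∀ (n : ℕ) (h : polar Q u (n • w) = 0),
    siegel Q u w hu hw ^ n = siegel Q u (n • w) hu h
  | 0, h => by
    apply LinearEquiv.ext
    intro v
    rw [siegel_apply, pow_zero]
    simp
  | n + 1, h => by
    have h1 : polar Q u (n • w) = 0 := by
      rw [← Nat.cast_smul_eq_nsmul F, polar_smul_right, hw, smul_zero]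
    rw [pow_succ, siegel_pow hu hw n h1]
    have h2 : polar Q u (n • w + w) = 0 := by rw [polar_add_right, h1, hw, add_zero]
    have h3 : siegel Q u (n • w) hu h1 * siegel Q u w hu hw = siegel Q u (n • w + w) hu h2 := by
      apply LinearEquiv.ext
      intro v
      have := siegelLin_comp hu h1 hw v
      exact this
    rw [h3]
    exact siegel_congr hu h2 hu h rfl (succ_nsmul w n).symm

theorem siegel_pow_char {p : ℕ} [CharP F p] {u w : V} (hu : Q u = 0) (hw : polar Q u w = 0) :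
    siegel Q u w hu hw ^ p = 1 := by
  have h0 : p • w = 0 := by rw [← Nat.cast_smul_eq_nsmul F, CharP.cast_eq_zero, zero_smul]
  have h1 : polar Q u (p • w) = 0 := by rw [h0, polar_zero_right]
  rw [siegel_pow hu hw p h1]
  apply LinearEquiv.ext
  intro v
  rw [siegel_apply, h0]
  simp

end siegel

/-- `V = V₀ ⊥ V₁` -/
structure Dec (Q : QuadraticForm F V) (V₀ V₁ : Submodule F V) : Prop where
  nd : Nondeg Q
  nd₀ : Nondeg (Q.comp V₀.subtype)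
  nd₁ : Nondeg (Q.comp V₁.subtype)
  perp : ∀ x ∈ V₀, ∀ y ∈ V₁, polar Q x y = 0
  sup : V₀ ⊔ V₁ = ⊤

/-- the embedding of a nondegenerate subspace -/
noncomputable def embS [FiniteDimensional F V] {W : Submodule F V} (hW : Nondeg (Q.comp W.subtype)) :
    Emb Q (Q.comp W.subtype) :=
  ofLin W.subtype 1 one_ne_zero (fun x => by rw [one_mul]; rfl) hW

theorem embS_j [FiniteDimensional F V] {W : Submodule F V} (hW : Nondeg (Q.comp W.subtype)) (x : W) :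
    (embS hW).j x = (x : V) := rfl

theorem embS_c [FiniteDimensional F V] {W : Submodule F V} (hW : Nondeg (Q.comp W.subtype)) : (embS hW).c = 1 := rfl

namespace Dec

variable {V₀ V₁ : Submodule F V} (D : Dec Q V₀ V₁)

include D

theorem eq_of {A : Type*} [AddCommGroup A] [Module F A] {f g : V →ₗ[F] A} (h₀ : ∀ x ∈ V₀, f x = g x)
    (h₁ : ∀ x ∈ V₁, f x = g x) : f = g := by
  apply LinearMap.ext
  intro v
  obtain ⟨x, hx, y, hy, rfl⟩ := Submodule.mem_sup.1 (D.sup ▸ Submodule.mem_top : v ∈ V₀ ⊔ V₁)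
  rw [map_add, map_add, h₀ x hx, h₁ y hy]

theorem eq_of' {f g : V ≃ₗ[F] V} (h₀ : ∀ x ∈ V₀, f x = g x) (h₁ : ∀ x ∈ V₁, f x = g x) : f = g := by
  have h : f.toLinearMap = g.toLinearMap := D.eq_of h₀ h₁
  apply LinearEquiv.ext
  intro v
  exact LinearMap.congr_fun h v

theorem mem₁_iff {v : V} : v ∈ V₁ ↔ ∀ x ∈ V₀, polar Q x v = 0 := by
  constructor
  · intro hv x hx
    exact D.perp x hx v hv
  · intro h
    obtain ⟨x, hx, y, hy, rfl⟩ := Submodule.mem_sup.1 (D.sup ▸ Submodule.mem_top : v ∈ V₀ ⊔ V₁)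
    have h1 : (⟨x, hx⟩ : V₀) = 0 := by
      apply D.nd₀
      intro z
      show polar Q x z = 0
      have h2 := h z z.2
      rw [polar_add_right, D.perp z z.2 y hy, add_zero, polar_comm] at h2
      exact h2
    have h2 : x = 0 := congrArg Subtype.val h1
    rw [h2, zero_add]
    exact hy

theorem mem₀_iff {v : V} : v ∈ V₀ ↔ ∀ x ∈ V₁, polar Q x v = 0 := by
  constructor
  · intro hv x hx
    rw [polar_comm]
    exact D.perp v hv x hx
  · intro h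
    obtain ⟨x, hx, y, hy, rfl⟩ := Submodule.mem_sup.1 (D.sup ▸ Submodule.mem_top : v ∈ V₀ ⊔ V₁)
    have h1 : (⟨y, hy⟩ : V₁) = 0 := by
      apply D.nd₁
      intro z
      show polar Q y z = 0
      have h2 := h z z.2
      rw [polar_add_right, polar_comm Q z x, D.perp x hx z z.2, zero_add, polar_comm] at h2
      exact h2
    have h2 : y = 0 := congrArg Subtype.val h1
    rw [h2, add_zero]
    exact hx

/-- an isometry acting as `± 1` on `V₀` preserves `V₁` -/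
theorem pres₁ {g : V ≃ₗ[F] V} (hg : g ∈ O Q) {c : F} (hc : c = 1 ∨ c = -1) (h : ∀ x ∈ V₀, g x = c • x) {v : V}
    (hv : v ∈ V₁) : g v ∈ V₁ := by
  rw [D.mem₁_iff]
  intro x hx
  have hcc : c * c = 1 := by rcases hc with rfl | rfl <;> ring
  have h1 : x = g (c • x) := by rw [map_smul, h x hx, smul_smul, hcc, one_smul]
  rw [h1, polar_map hg, polar_smul_left, D.perp x hx v hv, smul_zero]

theorem pres₀ {g : V ≃ₗ[F] V} (hg : g ∈ O Q) (h : ∀ x ∈ V₁, g x = x) {v : V}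
    (hv : v ∈ V₀) : g v ∈ V₀ := by
  rw [D.mem₀_iff]
  intro x hx
  nth_rewrite 1 [← h x hx]
  rw [polar_map hg, polar_comm]
  exact D.perp v hv x hx

variable [FiniteDimensional F V]

theorem π₁_of_mem₀ {v : V} (hv : v ∈ V₀) : (embS D.nd₁).π v = 0 := by
  apply D.nd₁
  intro y
  have h1 := (embS D.nd₁).adj y v
  rw [embS_j, embS_c, one_mul, polar_comm, D.perp v hv y y.2, polar_comm] at h1
  exact h1.symm

theorem π₁_of_mem₁ {v : V} (hv : v ∈ V₁) : (embS D.nd₁).j ((embS D.nd₁).π v) = v := by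
  have h := (embS D.nd₁).π_j ⟨v, hv⟩
  rw [embS_j] at h
  rw [show (embS D.nd₁).π v = ⟨v, hv⟩ from h, embS_j]

variable [Finite F] {p : ℕ} [CharP F p] {T : Subgroup ↥(E Q)}

/-- **The centraliser of `Yp p T`.** -/
theorem mem_cent (h3 : 3 ≤ Module.finrank F V₀)
    (hT₀ : ∀ t ∈ T, ∀ v ∈ V₀, (t : V ≃ₗ[F] V) v = v)
    (hT₁ : ∀ x : ↥(E Q), (∀ t ∈ T, x * t = t * x) → (∃ k : ℕ, x ^ p ^ k = 1) → ∀ v ∈ V₁, (x : V ≃ₗ[F] V) v = v)
    {g : ↥(E Q)} : g ∈ Subgroup.centralizer (Yp p T : Set ↥(E Q)) ↔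
      ∃ c : F, (c = 1 ∨ c = -1) ∧ ∀ x ∈ V₀, (g : V ≃ₗ[F] V) x = c • x := by
  constructor
  · intro hg
    rw [Subgroup.mem_centralizer_iff] at hg
    apply smul_of_comm D.nd₀ h3 (E_le_O g.2)
    intro u hu w hw hu0 huw
    obtain ⟨x, hx⟩ : ∃ x : ↥(E Q), x = ⟨siegel Q u w hu0 huw, siegel_mem_E hu0 huw⟩ := ⟨_, rfl⟩
    have hxv : ∀ v, (x : V ≃ₗ[F] V) v = v + polar Q u v • w - polar Q w v • u - (Q w * polar Q u v) • u := by
      intro v
      rw [hx]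
      exact siegel_apply hu0 huw v
    have hx₁ : ∀ v ∈ V₁, (x : V ≃ₗ[F] V) v = v := by
      intro v hv
      rw [hxv, D.perp u hu v hv, D.perp w hw v hv]
      simp
    have hx₀ : ∀ v ∈ V₀, (x : V ≃ₗ[F] V) v ∈ V₀ := fun v hv => D.pres₀ (E_le_O x.2) hx₁ hv
    have hxT : ∀ t ∈ T, x * t = t * x := by
      intro t ht
      apply Subtype.ext
      apply D.eq_of'
      · intro v hv
        show (x : V ≃ₗ[F] V) ((t : V ≃ₗ[F] V) v) = (t : V ≃ₗ[F] V) ((x : V ≃ₗ[F] V) v)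
        rw [hT₀ t ht v hv, hT₀ t ht _ (hx₀ v hv)]
      · intro v hv
        show (x : V ≃ₗ[F] V) ((t : V ≃ₗ[F] V) v) = (t : V ≃ₗ[F] V) ((x : V ≃ₗ[F] V) v)
        have h1 : (t : V ≃ₗ[F] V) v ∈ V₁ :=
          D.pres₁ (E_le_O t.2) (Or.inl rfl) (fun y hy => by rw [hT₀ t ht y hy, one_smul]) hv
        rw [hx₁ v hv, hx₁ _ h1]
    have hxY : x ∈ Yp p T := by
      refine Subgroup.subset_closure ⟨hxT, 1, ?_⟩
      apply Subtype.ext
      rw [pow_one]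
      show (x : V ≃ₗ[F] V) ^ p = 1
      rw [hx]
      exact siegel_pow_char hu0 huw
    have h2 := congrArg Subtype.val (hg x hxY)
    rw [hx] at h2
    exact h2.symm
  · rintro ⟨c, hc, h⟩
    unfold Yp
    rw [Subgroup.centralizer_closure, Subgroup.mem_centralizer_iff]
    rintro x ⟨hx1, hx2⟩
    have hx₁ := hT₁ x hx1 hx2
    have hx₀ : ∀ v ∈ V₀, (x : V ≃ₗ[F] V) v ∈ V₀ := fun v hv => D.pres₀ (E_le_O x.2) hx₁ hv
    apply Subtype.ext
    apply D.eq_of'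
    · intro v hv
      show (x : V ≃ₗ[F] V) ((g : V ≃ₗ[F] V) v) = (g : V ≃ₗ[F] V) ((x : V ≃ₗ[F] V) v)
      rw [h v hv, h _ (hx₀ v hv), map_smul]
    · intro v hv
      show (x : V ≃ₗ[F] V) ((g : V ≃ₗ[F] V) v) = (g : V ≃ₗ[F] V) ((x : V ≃ₗ[F] V) v)
      rw [hx₁ v hv, hx₁ _ (D.pres₁ (E_le_O g.2) hc h hv)]

/-- the restriction to `V₁` of an isometry acting as `± 1` on `V₀` -/
theorem exists_restr₁ {g : V ≃ₗ[F] V} (hg : g ∈ O Q) {c : F} (hc : c = 1 ∨ c = -1) (h : ∀ x ∈ V₀, g x = c • x) :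
    ∃ g' : V₁ ≃ₗ[F] V₁, g' ∈ O (Q.comp V₁.subtype) ∧ ∀ x : V₁, g x = g' x := by
  obtain ⟨g', h1, h2, -⟩ := Emb.exists_restrict (e := embS D.nd₁) hg (by
    intro v
    have key : g.toLinearMap ∘ₗ (embS D.nd₁).j ∘ₗ (embS D.nd₁).π = (embS D.nd₁).j ∘ₗ (embS D.nd₁).π ∘ₗ g.toLinearMap := by
      apply D.eq_of
      · intro x hx
        show g ((embS D.nd₁).j ((embS D.nd₁).π x)) = (embS D.nd₁).j ((embS D.nd₁).π (g x))
        rw [D.π₁_of_mem₀ hx, map_zero, map_zero, h x hx, map_smul, D.π₁_of_mem₀ hx, smul_zero, map_zero]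
      · intro x hx
        show g ((embS D.nd₁).j ((embS D.nd₁).π x)) = (embS D.nd₁).j ((embS D.nd₁).π (g x))
        rw [D.π₁_of_mem₁ hx, D.π₁_of_mem₁ (D.pres₁ hg hc h hx)]
    exact LinearMap.congr_fun key v)
  exact ⟨g', h1, fun x => h2 x⟩

/-- **`Hp p T` is the copy of `E (Q|V₁)`.** -/
theorem Hp_eq (h3 : 3 ≤ Module.finrank F V₀) (hG₁ : Good (Q.comp V₁.subtype))
    (hT₀ : ∀ t ∈ T, ∀ v ∈ V₀, (t : V ≃ₗ[F] V) v = v)
    (hT₁ : ∀ x : ↥(E Q), (∀ t ∈ T, x * t = t * x) → (∃ k : ℕ, x ^ p ^ k = 1) → ∀ v ∈ V₁, (x : V ≃ₗ[F] V) v = v) :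
    Hp p T = (embS D.nd₁).extE.range := by
  apply le_antisymm
  · unfold Hp
    rw [Subgroup.commutator_le]
    intro g₁ hg₁ g₂ hg₂
    obtain ⟨c₁, hc₁, h₁⟩ := (D.mem_cent h3 hT₀ hT₁).1 hg₁
    obtain ⟨c₂, hc₂, h₂⟩ := (D.mem_cent h3 hT₀ hT₁).1 hg₂
    obtain ⟨g₁', hg₁', hr₁⟩ := D.exists_restr₁ (E_le_O g₁.2) hc₁ h₁
    obtain ⟨g₂', hg₂', hr₂⟩ := D.exists_restr₁ (E_le_O g₂.2) hc₂ h₂
    obtain ⟨z, hzdef⟩ : ∃ z, z = g₁' * g₂' * g₁'⁻¹ * g₂'⁻¹ := ⟨_, rfl⟩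
    have hz : z ∈ E (Q.comp V₁.subtype) := by
      rw [← hG₁.commutator_eq_E, hzdef]
      exact Subgroup.commutator_mem_commutator hg₁' hg₂'
    refine ⟨⟨z, hz⟩, ?_⟩
    rw [commutatorElement_def g₁ g₂, eq_mul_inv_iff_mul_eq, eq_mul_inv_iff_mul_eq]
    apply Subtype.ext
    apply D.eq_of'
    · intro v hv
      show (embS D.nd₁).ext z ((g₂ : V ≃ₗ[F] V) ((g₁ : V ≃ₗ[F] V) v)) =
        (g₁ : V ≃ₗ[F] V) ((g₂ : V ≃ₗ[F] V) v)
      rw [h₁ v hv, map_smul, h₂ v hv, map_smul, map_smul, Emb.ext_of_π_eq_zero _ _ (D.π₁_of_mem₀ hv),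
        map_smul, h₁ v hv, smul_comm]
    · intro v hv
      show (embS D.nd₁).ext z ((g₂ : V ≃ₗ[F] V) ((g₁ : V ≃ₗ[F] V) v)) =
        (g₁ : V ≃ₗ[F] V) ((g₂ : V ≃ₗ[F] V) v)
      have e₁ := hr₁ ⟨v, hv⟩
      have e₂ := hr₂ ⟨v, hv⟩
      simp only at e₁ e₂
      rw [e₁, e₂, hr₁, hr₂, ← embS_j D.nd₁, Emb.ext_j, embS_j]
      have h5 : z * g₂' * g₁' = g₁' * g₂' := by rw [hzdef]; group
      have h6 := congrArg (fun f : V₁ ≃ₗ[F] V₁ => ((f ⟨v, hv⟩ : V₁) : V)) h5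
      exact h6
  · have hp : (commutator ↥(E (Q.comp V₁.subtype))) = ⊤ := Subgroup.isPerfect_iff.mpr hG₁.E_perfect |>.commutator_eq_top
    rw [MonoidHom.range_eq_map, ← hp, commutator_def, Subgroup.map_commutator]
    have h : (⊤ : Subgroup ↥(E (Q.comp V₁.subtype))).map (embS D.nd₁).extE ≤
        Subgroup.centralizer (Yp p T : Set ↥(E Q)) := by
      rintro _ ⟨x, -, rfl⟩
      rw [D.mem_cent h3 hT₀ hT₁]
      refine ⟨1, Or.inl rfl, fun v hv => ?_⟩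
      rw [one_smul, Emb.extE_coe, Emb.ext_of_π_eq_zero _ _ (D.π₁_of_mem₀ hv)]
    exact Subgroup.commutator_mono h h

end Dec

end Cfsg.Agent.H22.DPi
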