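import Mathlib
import Cfsg.Agent.H125.OrthRows
import Cfsg.Prelude.Def_LieTypeChar
import Cfsg.Agent.H22.DPi.Orth

/-!
# `E Q / Z(E Q)` is a group of Lie type; a large `p`-subgroup (helper22)
-/

set_option autoImplicit false

namespace Cfsg.Agent.H22.DPi

open QuadraticMap Cfsg
open Cfsg.Agent.LieClassical.OrthCore Cfsg.Agent.LieClassical.OrthTrans Cfsg.Agent.LieClassical.OrthSimple
open Cfsg.Agent.LieClassical.OrthFinite Cfsg.Agent.LieClassical.QuadForms
open Cfsg.Agent.GenOrth Cfsg.Agent.H353.TwoOrth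

universe u

theorem pomC {ι : Type} [Fintype ι] [DecidableEq ι] {F : Type} [Field F] {f g : (ι → F) → F} (h : f = g) :
    Nonempty (Cfsg.POmega F f ≃* Cfsg.POmega F g) := by
  subst h
  exact ⟨MulEquiv.refl _⟩

theorem isLie {p : ℕ} {F V : Type} [Field F] [Finite F] [CharP F p] [AddCommGroup V] [Module F V]
    [FiniteDimensional F V] {Q : QuadraticForm F V} (hQ : Nondeg Q) (hd : 8 ≤ Module.finrank F V) {X : Type u} [Group X]
    (e : X ≃* ↥(E Q) ⧸ Subgroup.center ↥(E Q)) : IsLieTypeChar p X := by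
  have := Fintype.ofFinite F
  have hG : Good Q := good_of_finite hQ (by omega)
  rcases GenOrth.normal_form (F := F) _ hQ rfl with ⟨k, hk, hs⟩ | ⟨k, hk, hs⟩ | ⟨k, hk, a, b, hab, hs⟩
  · obtain ⟨h2, c', hc', j, hj⟩ := H125.OrthLoc.exists_sim_odd hQ hk
    have hG' : Good (oddForm k F) := H125.OrthLoc.good_oddF F (by omega) h2
    have ho : Odd (Fintype.card F) := by
      rw [← Nat.not_even_iff_odd, Nat.even_iff]
      intro he
      have h3 : ringChar F = 2 := FiniteField.even_card_iff_char_two.2 he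
      have : CharP F 2 := ringChar.of_eq h3
      exact h2 CharTwo.two_eq_zero
    obtain ⟨f⟩ := H125.OrthLoc.equiv_of_sim hG hG' hc' j hj
    refine Or.inr (Or.inr (Or.inr (Or.inl ⟨F, inferInstance, inferInstance, inferInstance, k, by omega, ho, ?_⟩)))
    obtain ⟨g⟩ := pomC (coe_oddForm (F := F) (m := k))
    exact ⟨e.trans ((quotientCenterCongr f.symm).trans ((H125.OrthLoc.pomEquiv hG').symm.trans g))⟩
  · obtain ⟨c', hc', j, hj⟩ := hs
    have hG' : Good (plusForm k F) := H125.OrthLoc.good_plusF F (by omega)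
    obtain ⟨f⟩ := H125.OrthLoc.equiv_of_sim hG hG' hc' j (fun x => by rw [hj, coe_plusForm])
    refine Or.inr (Or.inr (Or.inr (Or.inr (Or.inl
      ⟨F, inferInstance, inferInstance, inferInstance, k, by omega, ?_⟩))))
    obtain ⟨g⟩ := pomC (coe_plusForm (F := F) (m := k))
    exact ⟨e.trans ((quotientCenterCongr f.symm).trans ((H125.OrthLoc.pomEquiv hG').symm.trans g))⟩
  · obtain ⟨c', hc', j, hj⟩ := hs
    have hG' : Good (minusForm k F a b) := H125.OrthLoc.good_minusF F (by omega) hab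
    obtain ⟨f⟩ := H125.OrthLoc.equiv_of_sim hG hG' hc' j (fun x => by rw [hj, coe_minusForm])
    refine Or.inr (Or.inr (Or.inr (Or.inr (Or.inr (Or.inl
      ⟨F, inferInstance, inferInstance, inferInstance, k + 1, a, b, by omega, hab, ?_⟩)))))
    obtain ⟨g⟩ := pomC (coe_minusForm (F := F) (m := k) (a := a) (b := b))
    exact ⟨e.trans ((quotientCenterCongr f.symm).trans ((H125.OrthLoc.pomEquiv hG').symm.trans g))⟩

section big

variable {F V : Type*} [Field F] [AddCommGroup V] [Module F V] {Q : QuadraticForm F V} {u v : V}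

/-- the Siegel elements of a singular vector -/
def sgH (h : Hyp Q u v) : Multiplicative (Comp (polarBilin Q v) (polarBilin Q u)) →* ↥(E Q) where
  toFun c := ⟨siegel Q u (c.toAdd : V) h.left (mem_Comp.1 c.toAdd.2).2, siegel_mem_E _ _⟩
  map_one' := by
    apply Subtype.ext
    apply LinearEquiv.ext
    intro x
    refine (siegel_apply h.left (w := ((0 : Comp (polarBilin Q v) (polarBilin Q u)) : V))
      (mem_Comp.1 (0 : Comp (polarBilin Q v) (polarBilin Q u)).2).2 x).trans ?_
    simp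
  map_mul' c d := by
    apply Subtype.ext
    apply LinearEquiv.ext
    intro x
    exact (siegelLin_comp h.left (mem_Comp.1 c.toAdd.2).2 (mem_Comp.1 d.toAdd.2).2 x).symm

theorem sgH_apply (h : Hyp Q u v) (c : Multiplicative (Comp (polarBilin Q v) (polarBilin Q u))) (x : V) :
    (sgH h c : V ≃ₗ[F] V) x = x + polar Q u x • (c.toAdd : V) - polar Q (c.toAdd : V) x • u -
      (Q (c.toAdd : V) * polar Q u x) • u :=
  siegel_apply h.left (mem_Comp.1 c.toAdd.2).2 x

theorem sgH_v (h : Hyp Q u v) (c : Multiplicative (Comp (polarBilin Q v) (polarBilin Q u))) :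
    (sgH h c : V ≃ₗ[F] V) v = v + (c.toAdd : V) - (Q (c.toAdd : V)) • u := by
  have h1 : (sgH h c : V ≃ₗ[F] V) v = _ := siegel_apply h.left (mem_Comp.1 c.toAdd.2).2 v
  have h2 : polar Q v (c.toAdd : V) = 0 := (mem_Comp.1 c.toAdd.2).1
  rw [h1, h.pair, polar_comm Q (c.toAdd : V) v, h2]
  simp

theorem eq_one_of_sgH (h : Hyp Q u v) {c : Multiplicative (Comp (polarBilin Q v) (polarBilin Q u))}
    (hc : (sgH h c : V ≃ₗ[F] V) v = v) : c = 1 := by
  rw [sgH_v] at hc
  have h1 : (c.toAdd : V) = (Q (c.toAdd : V)) • u := by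
    have h2 : (c.toAdd : V) - (Q (c.toAdd : V)) • u = v + (c.toAdd : V) - (Q (c.toAdd : V)) • u - v := by abel
    rw [hc, sub_self] at h2
    exact sub_eq_zero.1 h2
  have h2 : polar Q v (c.toAdd : V) = 0 := (mem_Comp.1 c.toAdd.2).1
  rw [h1, polar_smul_right, h.pair', smul_eq_mul, mul_one] at h2
  rw [h2, zero_smul] at h1
  have h3 : c.toAdd = 0 := Subtype.ext h1
  exact h3

theorem sgH_injective (h : Hyp Q u v) : Function.Injective (sgH h) := by
  rw [injective_iff_map_eq_one]
  intro c hc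
  apply eq_one_of_sgH h
  rw [hc]
  rfl

/-- **A large `p`-subgroup.** -/
theorem pow_dvd_card {p : ℕ} (hp : p.Prime) [CharP F p] [Finite F] [FiniteDimensional F V] (hQ : Nondeg Q) {m : ℕ}
    (hm : 3 ≤ m) (hd : m + 2 ≤ Module.finrank F V) : p ^ (m + 1) ∣ Nat.card ↥(E Q) := by
  have : Finite V := Module.finite_of_finite F
  have : Finite (V ≃ₗ[F] V) := Finite.of_injective (fun g : V ≃ₗ[F] V => (g : V → V)) DFunLike.coe_injective
  obtain ⟨u, v, h⟩ := exists_hyp_of_nondeg hQ (by omega)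
  have hs := split_of_hyp h
  have hfr := finrank_Comp hs
  have hnd := nondeg_restr hQ hs
  obtain ⟨z₀, w₀, hzw⟩ := exists_hyp_of_nondeg hnd (by omega)
  -- a vector of `⟨u, v⟩^⊥` orthogonal to `z` and not a multiple of `z`
  obtain ⟨a₀, ha1, ha2, ha3⟩ := exists_nonsing_perp hnd (by omega) hzw
  obtain ⟨z, hz⟩ := z₀
  obtain ⟨a, ha⟩ := a₀
  have hz0 : Q z = 0 := hzw.left
  have hza : polar Q z a = 0 := ha1
  have hQa : Q a ≠ 0 := ha3
  obtain ⟨s, hsdef⟩ : ∃ s : ↥(E Q), s = ⟨siegel Q z a hz0 hza, siegel_mem_E hz0 hza⟩ := ⟨_, rfl⟩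
  have hsa : ∀ x, (s : V ≃ₗ[F] V) x = x + polar Q z x • a - polar Q a x • z - (Q a * polar Q z x) • z := by
    intro x
    rw [hsdef]
    exact siegel_apply hz0 hza x
  have hpz : polar Q v z = 0 ∧ polar Q u z = 0 := mem_Comp.1 hz
  have hpa : polar Q v a = 0 ∧ polar Q u a = 0 := mem_Comp.1 ha
  have hsu : (s : V ≃ₗ[F] V) u = u := by
    rw [hsa, polar_comm Q z u, polar_comm Q a u, hpz.2, hpa.2]
    simp
  have hsv : (s : V ≃ₗ[F] V) v = v := by
    rw [hsa, polar_comm Q z v, polar_comm Q a v, hpz.1, hpa.1]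
    simp
  have hs1 : s ≠ 1 := by
    intro h1
    obtain ⟨w, hw⟩ := w₀
    have hzw' : polar Q z w = 1 := hzw.pair
    have haw : polar Q a w = 0 := by
      have h3 : polar Q w a = 0 := ha2
      rw [polar_comm]
      exact h3
    have h2 := hsa w
    rw [h1, hzw', haw] at h2
    have h3 : a = (Q a) • z := by
      have h4 : w = w + a - (Q a) • z := by
        have h5 : ((1 : ↥(E Q)) : V ≃ₗ[F] V) w = w := rfl
        rw [h5] at h2
        simpa using h2
      have h6 : a - (Q a) • z = (w + a - (Q a) • z) - w := by abel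
      rw [← h4, sub_self] at h6
      exact sub_eq_zero.1 h6
    apply hQa
    rw [h3, QuadraticMap.map_smul, hz0, smul_zero]
  have hsp : s ^ p = 1 := by
    apply Subtype.ext
    show (s : V ≃ₗ[F] V) ^ p = 1
    rw [hsdef]
    exact siegel_pow_char hz0 hza
  obtain ⟨A, hA⟩ : ∃ A, A = (sgH h).range := ⟨_, rfl⟩
  have hsA : s ∉ A := by
    rw [hA]
    rintro ⟨c, hc⟩
    apply hs1
    rw [← hc] at hsv ⊢
    rw [eq_one_of_sgH h hsv, map_one]
  have hsN : s ∈ Subgroup.normalizer (A : Set ↥(E Q)) := by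
    have key : ∀ c, s * sgH h c * s⁻¹ ∈ A := by
      intro c
      have h1 : (s : V ≃ₗ[F] V) (c.toAdd : V) ∈ Comp (polarBilin Q v) (polarBilin Q u) := by
        rw [mem_Comp]
        have e1 : polar Q v ((s : V ≃ₗ[F] V) (c.toAdd : V)) = 0 := by
          nth_rewrite 1 [← hsv]
          rw [polar_map (E_le_O s.2)]
          exact (mem_Comp.1 c.toAdd.2).1
        have e2 : polar Q u ((s : V ≃ₗ[F] V) (c.toAdd : V)) = 0 := by
          nth_rewrite 1 [← hsu]
          rw [polar_map (E_le_O s.2)]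
          exact (mem_Comp.1 c.toAdd.2).2
        exact ⟨e1, e2⟩
      rw [hA]
      refine ⟨Multiplicative.ofAdd ⟨(s : V ≃ₗ[F] V) (c.toAdd : V), h1⟩, ?_⟩
      rw [eq_mul_inv_iff_mul_eq]
      apply Subtype.ext
      apply LinearEquiv.ext
      intro x
      obtain ⟨y, rfl⟩ : ∃ y, y = x := ⟨x, rfl⟩
      show (sgH h (Multiplicative.ofAdd ⟨(s : V ≃ₗ[F] V) (c.toAdd : V), h1⟩) : V ≃ₗ[F] V) ((s : V ≃ₗ[F] V) y) =
        (s : V ≃ₗ[F] V) ((sgH h c : V ≃ₗ[F] V) y)
      rw [sgH_apply, sgH_apply]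
      simp only [toAdd_ofAdd]
      have e1 : polar Q u ((s : V ≃ₗ[F] V) y) = polar Q u y := by
        nth_rewrite 1 [← hsu]
        rw [polar_map (E_le_O s.2)]
      rw [e1, polar_map (E_le_O s.2), mem_O.1 (E_le_O s.2)]
      simp only [map_add, map_sub, map_smul, hsu]
    rw [Subgroup.mem_normalizer_iff]
    intro x
    constructor
    · intro hx
      rw [hA] at hx
      obtain ⟨c, rfl⟩ := hx
      exact key c
    · intro hx
      -- `s` has finite order
      have h1 : ∀ n : ℕ, s ^ n * (s * x * s⁻¹) * (s ^ n)⁻¹ ∈ A := by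
        intro n
        induction n with
        | zero => simpa using hx
        | succ n ih =>
          rw [hA] at ih
          obtain ⟨c, hc⟩ := ih
          have h2 := key c
          rw [hc] at h2
          have h3 : s ^ (n + 1) * (s * x * s⁻¹) * (s ^ (n + 1))⁻¹ = s * (s ^ n * (s * x * s⁻¹) * (s ^ n)⁻¹) * s⁻¹ := by
            rw [pow_succ']
            group
          rw [h3]
          exact h2
      have h2 := h1 (p - 1)
      have h3 : s ^ (p - 1) = s⁻¹ := by
        rw [eq_inv_iff_mul_eq_one, ← pow_succ, Nat.sub_add_cancel hp.one_lt.le, hsp]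
      rw [h3] at h2
      have h4 : s⁻¹ * (s * x * s⁻¹) * (s⁻¹)⁻¹ = x := by group
      rw [h4] at h2
      exact h2
  -- counting
  have hAle : A ≤ Subgroup.normalizer (A : Set ↥(E Q)) := Subgroup.le_normalizer
  have hcA : Nat.card A = Nat.card F ^ (Module.finrank F V - 2) := by
    rw [hA, Nat.card_congr (MonoidHom.ofInjective (sgH_injective h)).symm.toEquiv]
    have h1 : Nat.card (Multiplicative (Comp (polarBilin Q v) (polarBilin Q u))) =
        Nat.card (Comp (polarBilin Q v) (polarBilin Q u)) := rfl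
    rw [h1, Module.natCard_eq_pow_finrank (K := F)]
    congr 1
    omega
  have hpF : p ∣ Nat.card F := by
    have := Fintype.ofFinite F
    rw [Nat.card_eq_fintype_card]
    obtain ⟨n, hn1, hn2⟩ := FiniteField.card F p
    rw [hn2]
    exact dvd_pow_self p n.2.ne'
  have hpA : p ^ m ∣ Nat.card A := by
    rw [hcA]
    exact (pow_dvd_pow p (by omega)).trans (pow_dvd_pow_of_dvd hpF _)
  have hq : p ∣ Nat.card (↥(Subgroup.normalizer (A : Set ↥(E Q))) ⧸ A.subgroupOf (Subgroup.normalizer (A : Set ↥(E Q)))) := by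
    have : Fact p.Prime := ⟨hp⟩
    have h1 : orderOf (QuotientGroup.mk (s := A.subgroupOf (Subgroup.normalizer (A : Set ↥(E Q))))
        (⟨s, hsN⟩ : ↥(Subgroup.normalizer (A : Set ↥(E Q))))) = p := by
      apply orderOf_eq_prime
      · rw [← QuotientGroup.mk_pow, QuotientGroup.eq_one_iff]
        have h2 : (⟨s, hsN⟩ : ↥(Subgroup.normalizer (A : Set ↥(E Q)))) ^ p = 1 := Subtype.ext hsp
        rw [h2]
        exact one_mem _
      · intro h2
        rw [QuotientGroup.eq_one_iff] at h2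
        exact hsA h2
    have h2 := orderOf_dvd_natCard (QuotientGroup.mk (s := A.subgroupOf (Subgroup.normalizer (A : Set ↥(E Q))))
        (⟨s, hsN⟩ : ↥(Subgroup.normalizer (A : Set ↥(E Q)))))
    rwa [h1] at h2
  have h1 : Nat.card ↥(A.subgroupOf (Subgroup.normalizer (A : Set ↥(E Q)))) = Nat.card A :=
    Nat.card_congr (Subgroup.subgroupOfEquivOfLe hAle).toEquiv
  have h2 := Subgroup.card_eq_card_quotient_mul_card_subgroup (A.subgroupOf (Subgroup.normalizer (A : Set ↥(E Q))))
  rw [h1] at h2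
  have h3 : p ^ (m + 1) ∣ Nat.card ↥(Subgroup.normalizer (A : Set ↥(E Q))) := by
    rw [h2, pow_succ, mul_comm]
    exact mul_dvd_mul hq hpA
  exact h3.trans (Subgroup.card_subgroup_dvd_card _)

end big

end Cfsg.Agent.H22.DPi
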