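import Cfsg.Agent.H22.DPi.Core
import Cfsg.Agent.H22.DPi.LieT
import Cfsg.Agent.GenOrth.Main

/-!
# S4247, orthogonal groups, (b) (helper22)

`om_b` : `T` is normalised by the Hall `π`-subgroup `H` of `E Q`, `V = V₀ ⊥ V₁`, `T` fixes `V₀` pointwise, the
`p`-elements of `C(T)` fix `V₁` pointwise, `H` has a non-central section on `V₁`. Then `dim V₀ ≥ 3` is impossible.
-/

set_option autoImplicit false

namespace Cfsg.Agent.H22.DPi

open QuadraticMap Cfsg
open Cfsg.Agent.LieClassical.OrthCore Cfsg.Agent.LieClassical.OrthTrans Cfsg.Agent.LieClassical.OrthSimple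
open Cfsg.Agent.LieClassical.OrthFinite
open Cfsg.Agent.GenOrth Cfsg.Agent.H988.CPi Cfsg.Agent.H571.RV Cfsg.Agent.H817.DPi

universe u

section lin

variable {F V : Type*} [Field F] [AddCommGroup V] [Module F V] {Q : QuadraticForm F V}

/-- squares of isometries lie in `E Q` -/
theorem sq_mem_E [FiniteDimensional F V] (hG : Good Q) {g : V ≃ₗ[F] V} (hg : g ∈ O Q) : g * g ∈ E Q := by
  rw [O_eq_closure hG.nondeg] at hg
  have key : g ∈ O Q ∧ g * g ∈ E Q := by
    induction hg using Subgroup.closure_induction with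
    | mem x hx =>
      rcases hx with ⟨v, hv, rfl⟩ | hx
      · refine ⟨refl_mem_O hv, ?_⟩
        rw [refl_mul_self]
        exact one_mem _
      · have h1 : x ∈ E Q := Subgroup.subset_closure hx
        exact ⟨E_le_O h1, mul_mem h1 h1⟩
    | one => exact ⟨one_mem _, by rw [mul_one]; exact one_mem _⟩
    | mul x y _ _ hx hy =>
      refine ⟨mul_mem hx.1 hy.1, ?_⟩
      have h1 : x * y * (x * y) = (x * x) * (x⁻¹ * y * x⁻¹⁻¹ * y⁻¹) * (y * y) := by group
      have h2 : x⁻¹ * y * x⁻¹⁻¹ * y⁻¹ ∈ E Q := by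
        rw [← hG.commutator_eq_E]
        exact Subgroup.commutator_mem_commutator (inv_mem hx.1) hy.1
      rw [h1]
      exact mul_mem (mul_mem hx.2 h2) hy.2
    | inv x _ hx =>
      refine ⟨inv_mem hx.1, ?_⟩
      rw [← mul_inv_rev]
      exact inv_mem hx.2
  exact key.2

/-- isometries of odd order lie in `E Q` -/
theorem mem_E_of_odd [FiniteDimensional F V] (hG : Good Q) {g : V ≃ₗ[F] V} (hg : g ∈ O Q) {n : ℕ} (hn : Odd n)
    (h : g ^ n = 1) : g ∈ E Q := by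
  obtain ⟨k, rfl⟩ := hn
  have h1 : g = (g * g) ^ (k + 1) := by
    have h2 : (g * g) ^ (k + 1) = g ^ (2 * k + 1) * g := by
      rw [← pow_two, ← pow_mul, ← pow_succ]
      congr 1
    rw [h2, h, one_mul]
  rw [h1]
  exact pow_mem (sq_mem_E hG hg) _

theorem not_comm_PE (hG : Good Q) : ¬ IsMulCommutative (↥(E Q) ⧸ Subgroup.center ↥(E Q)) := by
  intro hc
  have hs : IsSimpleGroup (↥(E Q) ⧸ Subgroup.center ↥(E Q)) := good_isSimpleGroup hG
  have h0 : commutator ↥(E Q) = ⊤ := (Subgroup.isPerfect_iff.mpr hG.E_perfect).commutator_eq_top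
  have h1 : commutator (↥(E Q) ⧸ Subgroup.center ↥(E Q)) = ⊤ := by
    have h2 : (commutator ↥(E Q)).map (QuotientGroup.mk' (Subgroup.center ↥(E Q))) = ⊤ := by
      rw [h0, ← MonoidHom.range_eq_map]
      exact MonoidHom.range_eq_top.mpr (QuotientGroup.mk'_surjective _)
    rw [eq_top_iff, ← h2, commutator_def, Subgroup.map_commutator]
    exact Subgroup.commutator_mono le_top le_top
  have h3 : commutator (↥(E Q) ⧸ Subgroup.center ↥(E Q)) = ⊥ := by
    rw [commutator_def, Subgroup.commutator_eq_bot_iff_le_centralizer]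
    intro x _
    rw [Subgroup.mem_centralizer_iff]
    intro y _
    exact hc.is_comm.comm y x
  rw [h1] at h3
  have := hs.toNontrivial
  exact top_ne_bot h3

theorem cen_sq (hG : Good Q) {z : ↥(E Q)} (hz : z ∈ Subgroup.center ↥(E Q)) :
    ∃ c : F, (c = 1 ∨ c = -1) ∧ ∀ v, (z : V ≃ₗ[F] V) v = c • v := by
  obtain ⟨c, hc⟩ := Cfsg.Agent.TitsThree.KSideO.scalar_of_center hG hz
  exact ⟨c, scalar_sq hG z.2 hc, hc⟩

/-- the exponent of the centre -/
theorem cen_pow (hG : Good Q) {p : ℕ} [CharP F p] {z : ↥(E Q)} (hz : z ∈ Subgroup.center ↥(E Q)) :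
    z ^ (if p = 2 then 1 else 2) = 1 := by
  obtain ⟨c, hc, h⟩ := cen_sq hG hz
  split_ifs with hp
  · subst hp
    have h1 : c = 1 := by
      rcases hc with hc | hc
      · exact hc
      · rw [hc, CharTwo.neg_eq]
    rw [pow_one]
    apply Subtype.ext
    apply LinearEquiv.ext
    intro v
    rw [h, h1, one_smul]
    rfl
  · apply Subtype.ext
    apply LinearEquiv.ext
    intro v
    have h1 : ((z ^ 2 : ↥(E Q)) : V ≃ₗ[F] V) v = (z : V ≃ₗ[F] V) ((z : V ≃ₗ[F] V) v) := by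
      rw [pow_two]
      rfl
    rw [h1, h, h, smul_smul]
    have h2 : c * c = 1 := by rcases hc with rfl | rfl <;> ring
    rw [h2, one_smul]
    rfl

end lin

theorem card_psl_three : Nat.card (Matrix.ProjectiveSpecialLinearGroup (Fin 3) (ZMod 2)) ∣ 168 := by
  have h1 : Nat.card (Matrix.ProjectiveSpecialLinearGroup (Fin 3) (ZMod 2)) ∣
      Nat.card (Matrix.SpecialLinearGroup (Fin 3) (ZMod 2)) :=
    ⟨_, Subgroup.card_eq_card_quotient_mul_card_subgroup _⟩
  have h2 : Nat.card (Matrix.SpecialLinearGroup (Fin 3) (ZMod 2)) ∣ Nat.card (GL (Fin 3) (ZMod 2)) :=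
    Subgroup.card_dvd_of_injective Matrix.SpecialLinearGroup.toGL Matrix.SpecialLinearGroup.toGL_injective
  rw [Matrix.card_GL_field] at h2
  refine (h1.trans h2).trans ?_
  rw [Fin.prod_univ_three]
  simp [ZMod.card]

theorem card_psl_five : Nat.card (Matrix.ProjectiveSpecialLinearGroup (Fin 5) (ZMod 2)) ∣ 9999360 := by
  have h1 : Nat.card (Matrix.ProjectiveSpecialLinearGroup (Fin 5) (ZMod 2)) ∣
      Nat.card (Matrix.SpecialLinearGroup (Fin 5) (ZMod 2)) :=
    ⟨_, Subgroup.card_eq_card_quotient_mul_card_subgroup _⟩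
  have h2 : Nat.card (Matrix.SpecialLinearGroup (Fin 5) (ZMod 2)) ∣ Nat.card (GL (Fin 5) (ZMod 2)) :=
    Subgroup.card_dvd_of_injective Matrix.SpecialLinearGroup.toGL Matrix.SpecialLinearGroup.toGL_injective
  rw [Matrix.card_GL_field] at h2
  refine (h1.trans h2).trans ?_
  rw [Fin.prod_univ_five]
  simp [ZMod.card]

section siegelne

variable {F V : Type*} [Field F] [Finite F] [AddCommGroup V] [Module F V] [FiniteDimensional F V]
  {Q : QuadraticForm F V} {V₀ V₁ : Submodule F V}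

/-- a nontrivial `p`-element of `E Q` which fixes `V₁` pointwise and preserves `V₀` -/
theorem Dec.exists_s (D : Dec Q V₀ V₁) (h3 : 3 ≤ Module.finrank F V₀) {p : ℕ} [CharP F p] :
    ∃ s : ↥(E Q), s ≠ 1 ∧ s ^ p = 1 ∧ (∀ v ∈ V₁, (s : V ≃ₗ[F] V) v = v) ∧ ∀ v ∈ V₀, (s : V ≃ₗ[F] V) v ∈ V₀ := by
  obtain ⟨u₀, v₀, h⟩ := exists_hyp_of_nondeg D.nd₀ h3
  obtain ⟨a₀, ha1, ha2, ha3⟩ := exists_nonsing_perp D.nd₀ h3 h
  obtain ⟨u, hu⟩ := u₀
  obtain ⟨v, hv⟩ := v₀
  obtain ⟨a, ha⟩ := a₀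
  have hu0 : Q u = 0 := h.left
  have hua : polar Q u a = 0 := ha1
  have hva : polar Q v a = 0 := ha2
  have huv : polar Q u v = 1 := h.pair
  have hQa : Q a ≠ 0 := ha3
  obtain ⟨s, hsdef⟩ : ∃ s : ↥(E Q), s = ⟨siegel Q u a hu0 hua, siegel_mem_E hu0 hua⟩ := ⟨_, rfl⟩
  have hsa : ∀ x, (s : V ≃ₗ[F] V) x = x + polar Q u x • a - polar Q a x • u - (Q a * polar Q u x) • u := by
    intro x
    rw [hsdef]
    exact siegel_apply hu0 hua x
  have hs₁ : ∀ x ∈ V₁, (s : V ≃ₗ[F] V) x = x := by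
    intro x hx
    rw [hsa, D.perp u hu x hx, D.perp a ha x hx]
    simp
  refine ⟨s, ?_, ?_, hs₁, fun x hx => D.pres₀ (E_le_O s.2) hs₁ hx⟩
  · intro h1
    have h2 := hsa v
    rw [h1, huv, polar_comm Q a v, hva] at h2
    have h5 : ((1 : ↥(E Q)) : V ≃ₗ[F] V) v = v := rfl
    rw [h5] at h2
    have h6 : a = (Q a) • u := by
      have h4 : v = v + a - (Q a) • u := by simpa using h2
      have h7 : a - (Q a) • u = (v + a - (Q a) • u) - v := by abel
      rw [← h4, sub_self] at h7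
      exact sub_eq_zero.1 h7
    apply hQa
    rw [h6, QuadraticMap.map_smul, hu0, smul_zero]
  · apply Subtype.ext
    show (s : V ≃ₗ[F] V) ^ p = 1
    rw [hsdef]
    exact siegel_pow_char hu0 hua

/-- elements of odd order fixing `V₀` pointwise -/
theorem Dec.mem_range (D : Dec Q V₀ V₁) (hG₁ : Good (Q.comp V₁.subtype)) {x : ↥(E Q)}
    (hx : ∀ v ∈ V₀, (x : V ≃ₗ[F] V) v = v) {n : ℕ} (hn : Odd n) (hxn : x ^ n = 1) :
    x ∈ (embS D.nd₁).extE.range := by
  obtain ⟨g, hg, hgx⟩ := D.exists_restr₁ (E_le_O x.2) (c := 1) (Or.inl rfl) (fun v hv => by rw [hx v hv, one_smul])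
  have h1 : (embS D.nd₁).ext g = (x : V ≃ₗ[F] V) := by
    apply D.eq_of'
    · intro v hv
      rw [Emb.ext_of_π_eq_zero _ _ (D.π₁_of_mem₀ hv), hx v hv]
    · intro v hv
      have h2 := hgx ⟨v, hv⟩
      have h3 := (embS D.nd₁).ext_j g ⟨v, hv⟩
      rw [embS_j, embS_j] at h3
      exact h3.trans h2.symm
  have h2 : g ^ n = 1 := by
    apply (embS D.nd₁).ext_injective
    rw [map_pow, h1, map_one]
    exact congrArg Subtype.val hxn
  exact ⟨⟨g, mem_E_of_odd hG₁ hg hn h2⟩, Subtype.ext h1⟩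

end siegelne

/-- **S4247, orthogonal groups, (b)** -/
theorem om_b {π : Set ℕ} {S : Type u} [Group S] [Finite S] [IsSimpleGroup S] (hna : ¬ IsMulCommutative S)
    {p : ℕ} (hp : p.Prime)
    {P : Subgroup S} {K B : Subgroup (MulAut S)} (C : Cfg π P K B) (hI : IH π P K)
    {F V : Type} [Field F] [Finite F] [CharP F p] [AddCommGroup V] [Module F V] [FiniteDimensional F V]
    {Q : QuadraticForm F V} {V₀ V₁ : Submodule F V} (D : Dec Q V₀ V₁)
    (h3 : 3 ≤ Module.finrank F V₀) (h12 : 12 ≤ Module.finrank F V₁)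
    {ψ : ↥(E Q) →* S} (hψ : Function.Surjective ψ) (hψc : ψ.ker ≤ Subgroup.center ↥(E Q))
    {H T : Subgroup ↥(E Q)} (hHπ : PiN π (Nat.card H)) (hHP : H.map ψ = P) (hTH : T ≤ H)
    (hHT : ∀ h ∈ H, ∀ t ∈ T, h * t * h⁻¹ ∈ T)
    (hT₀ : ∀ t ∈ T, ∀ v ∈ V₀, (t : V ≃ₗ[F] V) v = v)
    (hT₁ : ∀ x : ↥(E Q), (∀ t ∈ T, x * t = t * x) → (∃ k : ℕ, x ^ p ^ k = 1) → ∀ v ∈ V₁, (x : V ≃ₗ[F] V) v = v)
    {y t : ↥(E Q)} (hyH : y ∈ H) (hy₀ : ∀ v ∈ V₀, (y : V ≃ₗ[F] V) v = v) (htT : t ∈ T)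
    (hcop : (orderOf y).Coprime (orderOf t)) (hyt : y * t ≠ t * y)
    (excl : ∀ (X : Type u) [Group X] [Finite X] [IsSimpleGroup X], ¬ IsMulCommutative X → IsLieTypeChar p X → Cls π X →
      (∀ P : Subgroup X, IsPiHall π P → Group.IsNilpotent P) ∨
        Nonempty (X ≃* Matrix.ProjectiveSpecialLinearGroup (Fin 3) (ZMod 2)) ∨
        Nonempty (X ≃* Matrix.ProjectiveSpecialLinearGroup (Fin 5) (ZMod 2))) : False := by
  have hfact := Fact.mk hp
  have hfinV : Finite V := Module.finite_of_finite F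
  have hfinG : Finite (V ≃ₗ[F] V) := Finite.of_injective (fun g : V ≃ₗ[F] V => (g : V → V)) DFunLike.coe_injective
  have hfinG₁ : Finite (V₁ ≃ₗ[F] V₁) :=
    Finite.of_injective (fun g : V₁ ≃ₗ[F] V₁ => (g : V₁ → V₁)) DFunLike.coe_injective
  have hdV : Module.finrank F V₁ ≤ Module.finrank F V := Submodule.finrank_le V₁
  have hG : Good Q := good_of_finite D.nd (by omega)
  have hG₁ : Good (Q.comp V₁.subtype) := good_of_finite D.nd₁ (by omega)
  obtain ⟨m, hm⟩ : ∃ m, m = if p = 2 then 1 else 2 := ⟨_, rfl⟩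
  have hk : ∀ z ∈ ψ.ker, z ^ m = 1 := fun z hz => by rw [hm]; exact cen_pow hG (hψc hz)
  have hmp : m.Coprime p := by
    rw [hm]
    split_ifs with h
    · exact Nat.coprime_one_left p
    · exact (Nat.coprime_primes Nat.prime_two hp).2 (Ne.symm h)
  have hmodd : ∀ n : ℕ, Odd n → m.Coprime n := by
    intro n hn
    rw [hm]
    split_ifs with h
    · exact Nat.coprime_one_left n
    · exact (Nat.coprime_two_left).2 hn
  have hHodd : Odd (Nat.card H) := by
    rw [← Nat.not_even_iff_odd]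
    intro h
    exact C.two (hHπ 2 Nat.prime_two h.two_dvd)
  have hpow : ∀ x ∈ H, x ^ Nat.card H = 1 := by
    intro x hx
    have h := pow_card_eq_one' (x := (⟨x, hx⟩ : H))
    exact congrArg Subtype.val h
  have hT : ∀ t ∈ T, ∃ n : ℕ, t ^ n = 1 ∧ m.Coprime n :=
    fun t ht => ⟨Nat.card H, hpow t (hTH ht), hmodd _ hHodd⟩
  have hHpE := D.Hp_eq h3 hG₁ hT₀ hT₁
  obtain ⟨M, hM⟩ : ∃ M, M = Hp p (T.map ψ) := ⟨_, rfl⟩
  have hM1 : M = (embS D.nd₁).extE.range.map ψ := by rw [hM, Hp_map hψ hψc hk hmp hT, hHpE]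
  -- elements of `H` fixing `V₀`
  have hfix : ∀ x ∈ H, (∀ v ∈ V₀, (x : V ≃ₗ[F] V) v = v) → ψ x ∈ M := by
    intro x hx h
    rw [hM1]
    exact ⟨x, D.mem_range hG₁ h hHodd (hpow x hx), rfl⟩
  -- `M ≠ ⊤`
  have hMt : M ≠ ⊤ := by
    intro hMt
    obtain ⟨s, hs1, hsp, hs₁, hs₀⟩ := D.exists_s h3 (p := p)
    apply hs1
    have hcomm : ∀ g : ↥(E (Q.comp V₁.subtype)), s * (embS D.nd₁).extE g = (embS D.nd₁).extE g * s := by
      intro g
      have hg₀ : ∀ v ∈ V₀, ((embS D.nd₁).extE g : V ≃ₗ[F] V) v = v := fun v hv => by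
        rw [Emb.extE_coe, Emb.ext_of_π_eq_zero _ _ (D.π₁_of_mem₀ hv)]
      apply Subtype.ext
      apply D.eq_of'
      · intro v hv
        show (s : V ≃ₗ[F] V) (((embS D.nd₁).extE g : V ≃ₗ[F] V) v) = ((embS D.nd₁).extE g : V ≃ₗ[F] V) ((s : V ≃ₗ[F] V) v)
        rw [hg₀ v hv, hg₀ _ (hs₀ v hv)]
      · intro v hv
        show (s : V ≃ₗ[F] V) (((embS D.nd₁).extE g : V ≃ₗ[F] V) v) = ((embS D.nd₁).extE g : V ≃ₗ[F] V) ((s : V ≃ₗ[F] V) v)
        have h1 : ((embS D.nd₁).extE g : V ≃ₗ[F] V) v ∈ V₁ :=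
          D.pres₁ (E_le_O ((embS D.nd₁).extE g).2) (c := 1) (Or.inl rfl) (fun y hy => by rw [hg₀ y hy, one_smul]) hv
        rw [hs₁ v hv, hs₁ _ h1]
    have hcen : ψ s ∈ Subgroup.center S := by
      rw [Subgroup.mem_center_iff]
      intro x
      have hx : x ∈ M := by rw [hMt]; exact Subgroup.mem_top x
      rw [hM1] at hx
      obtain ⟨_, ⟨g, rfl⟩, rfl⟩ := hx
      rw [← map_mul, ← map_mul, hcomm]
    have hc : Subgroup.center S = ⊥ := by
      rcases IsSimpleGroup.eq_bot_or_eq_top_of_normal (Subgroup.center S) inferInstance with h | h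
      · exact h
      · exfalso
        apply hna
        refine ⟨⟨fun a b => ?_⟩⟩
        have ha : a ∈ Subgroup.center S := by rw [h]; exact Subgroup.mem_top a
        exact (Subgroup.mem_center_iff.1 ha b).symm
    rw [hc, Subgroup.mem_bot] at hcen
    have h1 := hk s hcen
    have h2 : orderOf s ∣ 1 := by
      rw [← hmp.gcd_eq_one]
      exact Nat.dvd_gcd (orderOf_dvd_of_pow_eq_one h1) (orderOf_dvd_of_pow_eq_one hsp)
    exact orderOf_eq_one_iff.1 (Nat.dvd_one.1 h2)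
  -- `P` normalises `M`
  have hPM : P ≤ Subgroup.normalizer (M : Set S) := by
    intro x hx
    rw [← hHP] at hx
    obtain ⟨h, hh, rfl⟩ := hx
    have h1 : (T.map ψ).map (MulAut.conj (ψ h)).toMonoidHom = T.map ψ := by
      ext z
      constructor
      · rintro ⟨_, ⟨t, ht, rfl⟩, rfl⟩
        refine ⟨h * t * h⁻¹, hHT h hh t ht, ?_⟩
        rw [map_mul, map_mul, map_inv]
        rfl
      · rintro ⟨t, ht, rfl⟩
        refine ⟨ψ (h⁻¹ * t * h⁻¹⁻¹), ⟨_, hHT _ (inv_mem hh) t ht, rfl⟩, ?_⟩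
        show ψ h * ψ (h⁻¹ * t * h⁻¹⁻¹) * (ψ h)⁻¹ = ψ t
        rw [← map_mul, ← map_inv, ← map_mul]
        congr 1
        group
    have h2 : M.map (MulAut.conj (ψ h)).toMonoidHom = M := by
      rw [hM]
      exact Hp_aut h1
    rw [Subgroup.mem_normalizer_iff]
    intro n
    constructor
    · intro hn
      rw [← h2]
      exact ⟨n, hn, rfl⟩
    · intro hn
      rw [← h2] at hn
      obtain ⟨n', hn', he⟩ := hn
      have he' : (MulAut.conj (ψ h)) n' = (MulAut.conj (ψ h)) n := he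
      rw [← (MulAut.conj (ψ h)).injective he']
      exact hn'
  -- `K` stabilises `M`
  have hKM : K ≤ stab M := by
    intro k hkK
    rw [mem_stab, hM]
    apply Hp_aut
    have hfx : ∀ t ∈ T, k (ψ t) = ψ t := fun t ht => C.fix k hkK _ (by rw [← hHP]; exact ⟨t, hTH ht, rfl⟩)
    ext z
    constructor
    · rintro ⟨_, ⟨t, ht, rfl⟩, rfl⟩
      exact ⟨t, ht, (hfx t ht).symm⟩
    · rintro ⟨t, ht, rfl⟩
      exact ⟨ψ t, ⟨t, ht, rfl⟩, hfx t ht⟩
  -- the structure of `M`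
  have hinj : Function.Injective (ψ.comp (embS D.nd₁).extE) := by
    rw [injective_iff_map_eq_one]
    intro g hg
    have h1 : (embS D.nd₁).extE g ∈ Subgroup.center ↥(E Q) := hψc hg
    obtain ⟨c, -, hc⟩ := cen_sq hG h1
    have h2 : ∃ x : V₀, x ≠ 0 := by
      have : Nontrivial V₀ := Module.nontrivial_of_finrank_pos (R := F) (by omega)
      exact exists_ne 0
    obtain ⟨x, hx⟩ := h2
    have h3 := hc x
    rw [Emb.extE_coe, Emb.ext_of_π_eq_zero _ _ (D.π₁_of_mem₀ x.2)] at h3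
    have hc1 : c = 1 := by
      have h4 : (1 - c) • (x : V) = 0 := by rw [sub_smul, one_smul, ← h3, sub_self]
      rcases smul_eq_zero.1 h4 with h5 | h5
      · exact (sub_eq_zero.1 h5).symm
      · exact (hx (Subtype.ext h5)).elim
    apply (embS D.nd₁).extE_injective
    rw [map_one]
    apply Subtype.ext
    apply LinearEquiv.ext
    intro v
    rw [hc, hc1, one_smul]
    rfl
  have hrange : (ψ.comp (embS D.nd₁).extE).range = M := by
    rw [hM1, MonoidHom.range_comp]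
  have e : ↥(E (Q.comp V₁.subtype)) ≃* ↥M :=
    (MonoidHom.ofInjective hinj).trans (MulEquiv.subgroupCongr hrange)
  have eX : (↥M ⧸ Subgroup.center ↥M) ≃* (↥(E (Q.comp V₁.subtype)) ⧸ Subgroup.center ↥(E (Q.comp V₁.subtype))) :=
    quotientCenterCongr e.symm
  have hs : IsSimpleGroup (↥M ⧸ Subgroup.center ↥M) := by
    have h1 : IsSimpleGroup (↥(E (Q.comp V₁.subtype)) ⧸ Subgroup.center ↥(E (Q.comp V₁.subtype))) :=
      good_isSimpleGroup hG₁
    exact eX.isSimpleGroup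
  have hnaX : ¬ IsMulCommutative (↥M ⧸ Subgroup.center ↥M) := by
    intro h
    apply not_comm_PE hG₁
    refine ⟨⟨fun a b => ?_⟩⟩
    apply eX.symm.injective
    rw [map_mul, map_mul]
    exact h.is_comm.comm _ _
  have hLie : IsLieTypeChar p (↥M ⧸ Subgroup.center ↥M) := isLie D.nd₁ (by omega) eX
  -- the order
  have hdvd : p ^ 11 ∣ Nat.card (↥M ⧸ Subgroup.center ↥M) := by
    have h1 : p ^ (10 + 1) ∣ Nat.card ↥(E (Q.comp V₁.subtype)) :=
      pow_dvd_card hp D.nd₁ (m := 10) (by norm_num) (by omega)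
    rw [Nat.card_congr eX.toEquiv]
    rw [Subgroup.card_eq_card_quotient_mul_card_subgroup (Subgroup.center ↥(E (Q.comp V₁.subtype)))] at h1
    refine Nat.Coprime.dvd_of_dvd_mul_right ?_ h1
    apply Nat.Coprime.pow_left
    rw [hp.coprime_iff_not_dvd]
    intro h2
    obtain ⟨z, hz⟩ := exists_prime_orderOf_dvd_card' (G := ↥(Subgroup.center ↥(E (Q.comp V₁.subtype)))) p h2
    have h4 : (z : ↥(E (Q.comp V₁.subtype))) ^ m = 1 := by rw [hm]; exact cen_pow hG₁ z.2
    have h5 : z ^ m = 1 := Subtype.ext h4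
    have h6 : p ∣ m := by rw [← hz]; exact orderOf_dvd_of_pow_eq_one h5
    have h7 : p ∣ 1 := by
      rw [← hmp.gcd_eq_one]
      exact Nat.dvd_gcd h6 dvd_rfl
    exact hp.one_lt.ne' (Nat.dvd_one.1 h7)
  have hnil : Cls π (↥M ⧸ Subgroup.center ↥M) →
      ∀ P' : Subgroup (↥M ⧸ Subgroup.center ↥M), IsPiHall π P' → Group.IsNilpotent P' := by
    intro hcls
    rcases excl _ hnaX hLie hcls with h | ⟨⟨f⟩⟩ | ⟨⟨f⟩⟩
    · exact h
    · exfalso
      rw [Nat.card_congr f.toEquiv] at hdvd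
      have h1 := Nat.le_of_dvd (by norm_num) (hdvd.trans card_psl_three)
      have h2 : 2 ^ 11 ≤ p ^ 11 := Nat.pow_le_pow_left hp.two_le 11
      norm_num at h2
      omega
    · exfalso
      rw [Nat.card_congr f.toEquiv] at hdvd
      have h0 := hdvd.trans card_psl_five
      have h1 := Nat.le_of_dvd (by norm_num) h0
      have h2 : p < 5 := by
        by_contra hc
        have h3 : 5 ^ 11 ≤ p ^ 11 := Nat.pow_le_pow_left (by omega) 11
        norm_num at h3
        omega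
      have h3 := hp.two_le
      interval_cases p
      · norm_num at h0
      · norm_num at h0
      · norm_num at h0
  -- the conclusion
  have h1 : ψ y * ψ t = ψ t * ψ y := by
    have hCP : IsPiHall π P := C.hall
    refine comm_of_core hCP hI hMt hPM hKM hs hnaX hnil ?_ ?_ (hfix y hyH hy₀) (hfix t (hTH htT) (hT₀ t htT)) ?_
    · rw [← hHP]; exact ⟨y, hyH, rfl⟩
    · rw [← hHP]; exact ⟨t, hTH htT, rfl⟩
    · exact (hcop.coprime_dvd_left (orderOf_map_dvd ψ y)).coprime_dvd_right (orderOf_map_dvd ψ t)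
  exact hyt (comm_of_ker hψc h1 (hpow t (hTH htT)) hk (hmodd _ hHodd))

end Cfsg.Agent.H22.DPi
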